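import Cfsg.Agent.Lib.ClassicalLinear.SympBasic

/-!
Two generators of the symplectic group over a finite field: a torus element with a commuting transvection,
and a short root element times a Coxeter monomial.
-/

set_option autoImplicit false

open Matrix CfsgLib.ClassicalLinear

namespace CfsgLib.KnownSimple.TwoGen.Symp

variable {F : Type*} [Field F] {n : ℕ}

local notation "V" => (Fin (n + 1) ⊕ Fin (n + 1) → F)
local notation "Sp" => Matrix.symplecticGroup (Fin (n + 1)) F
local notation "ω" => Cfsg.sympForm (n + 1) F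
local notation "eL" i:max => (Pi.single (Sum.inl i) (1 : F) : V)
local notation "eR" i:max => (Pi.single (Sum.inr i) (1 : F) : V)

theorem form_eL (v : V) (i : Fin (n + 1)) : ω v (eL i) = v (Sum.inr i) := by
  simp [CfsgLib.Omega.sympForm_eq_sum, Pi.single_apply, mul_ite]

theorem form_eR (v : V) (i : Fin (n + 1)) : ω v (eR i) = -v (Sum.inl i) := by
  simp [CfsgLib.Omega.sympForm_eq_sum, Pi.single_apply, mul_ite]

/-- The Coxeter monomial map as a linear equivalence. -/
def coxEquiv : V ≃ₗ[F] V where
  toFun v := Sum.elim (Fin.cons (-v (.inr (Fin.last n))) fun j : Fin n => v (.inl j.castSucc))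
    (Fin.cons (v (.inl (Fin.last n))) fun j : Fin n => v (.inr j.castSucc))
  invFun v := Sum.elim (Fin.snoc (fun j : Fin n => v (.inl j.succ)) (v (.inr 0)))
    (Fin.snoc (fun j : Fin n => v (.inr j.succ)) (-v (.inl 0)))
  map_add' u v := by
    funext i
    rcases i with i | i <;> induction i using Fin.cases <;> simp [add_comm]
  map_smul' a v := by
    funext i
    rcases i with i | i <;> induction i using Fin.cases <;> simp
  left_inv v := by
    funext i
    rcases i with i | i <;> induction i using Fin.lastCases <;> simp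
  right_inv v := by
    funext i
    rcases i with i | i <;> induction i using Fin.cases <;> simp

theorem coxEquiv_form (u v : V) : ω (coxEquiv u) (coxEquiv v) = ω u v := by
  rw [CfsgLib.Omega.sympForm_eq_sum, CfsgLib.Omega.sympForm_eq_sum, Fin.sum_univ_succ,
    Fin.sum_univ_castSucc (fun i => u (Sum.inr i) * v (Sum.inl i) - u (Sum.inl i) * v (Sum.inr i))]
  simp [coxEquiv]
  ring

variable (F n) in
/-- The Coxeter element. -/
noncomputable def cox : Sp := CfsgLib.Forms.spOfEquiv coxEquiv coxEquiv_form

theorem cox_smul (v : V) : cox F n • v = coxEquiv v := CfsgLib.Forms.spOfEquiv_mulVec _ _ v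

theorem cox_eL (i : Fin n) : cox F n • eL i.castSucc = eL i.succ := by
  rw [cox_smul]
  funext j
  rcases j with j | j <;> induction j using Fin.cases <;> simp [coxEquiv, Pi.single_apply, Fin.ext_iff]
  omega

theorem cox_eL_last : cox F n • eL (Fin.last n) = eR 0 := by
  rw [cox_smul]
  funext j
  rcases j with j | j <;> induction j using Fin.cases <;> simp [coxEquiv, Pi.single_apply, Fin.ext_iff]
  omega

theorem cox_eR (i : Fin n) : cox F n • eR i.castSucc = eR i.succ := by
  rw [cox_smul]
  funext j
  rcases j with j | j <;> induction j using Fin.cases <;> simp [coxEquiv, Pi.single_apply, Fin.ext_iff]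
  omega

/-- Scaling the first hyperbolic plane, as a linear equivalence. -/
def scaleEquiv (k : Fˣ) : V ≃ₗ[F] V where
  toFun v := Sum.elim (fun i => if i = 0 then (k : F) * v (.inl i) else v (.inl i))
    (fun i => if i = 0 then ((k⁻¹ : Fˣ) : F) * v (.inr i) else v (.inr i))
  invFun v := Sum.elim (fun i => if i = 0 then ((k⁻¹ : Fˣ) : F) * v (.inl i) else v (.inl i))
    (fun i => if i = 0 then (k : F) * v (.inr i) else v (.inr i))
  map_add' u v := by funext i; rcases i with i | i <;> simp <;> split_ifs <;> ring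
  map_smul' a v := by funext i; rcases i with i | i <;> simp <;> split_ifs <;> ring
  left_inv v := by funext i; rcases i with i | i <;> simp <;> split_ifs <;> simp
  right_inv v := by funext i; rcases i with i | i <;> simp <;> split_ifs <;> simp

theorem scaleEquiv_form (k : Fˣ) (u v : V) : ω (scaleEquiv k u) (scaleEquiv k v) = ω u v := by
  rw [CfsgLib.Omega.sympForm_eq_sum, CfsgLib.Omega.sympForm_eq_sum]
  refine Finset.sum_congr rfl fun i _ => ?_
  simp only [scaleEquiv, LinearEquiv.coe_mk, LinearMap.coe_mk, AddHom.coe_mk, Sum.elim_inl, Sum.elim_inr]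
  split_ifs with h
  · have := k.mul_inv
    linear_combination (u (.inr i) * v (.inl i) - u (.inl i) * v (.inr i)) * this
  · rfl

/-- The torus element. -/
noncomputable def scale (k : Fˣ) : Sp := CfsgLib.Forms.spOfEquiv (scaleEquiv k) (scaleEquiv_form k)

theorem scale_smul (k : Fˣ) (v : V) : scale (n := n) k • v = scaleEquiv k v :=
  CfsgLib.Forms.spOfEquiv_mulVec _ _ v

theorem scale_eL_zero (k : Fˣ) : scale (n := n) k • eL (0 : Fin (n + 1)) = (k : F) • eL 0 := by
  rw [scale_smul]
  funext j
  rcases j with j | j <;> by_cases h : j = 0 <;> simp [scaleEquiv, Pi.single_apply, h]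

theorem scale_eR_zero (k : Fˣ) : scale (n := n) k • eR (0 : Fin (n + 1)) = ((k⁻¹ : Fˣ) : F) • eR 0 := by
  rw [scale_smul]
  funext j
  rcases j with j | j <;> by_cases h : j = 0 <;> simp [scaleEquiv, Pi.single_apply, h]

theorem scale_eL (k : Fˣ) {i : Fin (n + 1)} (hi : i ≠ 0) : scale (n := n) k • eL i = eL i := by
  rw [scale_smul]
  funext j
  rcases j with j | j <;> by_cases h : j = 0 <;> simp [scaleEquiv, Pi.single_apply, h, hi.symm]

theorem scale_eR (k : Fˣ) {i : Fin (n + 1)} (hi : i ≠ 0) : scale (n := n) k • eR i = eR i := by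
  rw [scale_smul]
  funext j
  rcases j with j | j <;> by_cases h : j = 0 <;> simp [scaleEquiv, Pi.single_apply, h, hi.symm]

/-- The element of a short root subgroup attached to two orthogonal vectors. -/
def short (a b : V) (c : F) : Sp := spT (a + b) c * spT a (-c) * spT b (-c)

theorem short_smul {a b : V} (hab : ω a b = 0) (c : F) (v : V) :
    short a b c • v = v + (c * ω v a) • b + (c * ω v b) • a := by
  have hba : ω b a = 0 := by rw [sympForm_skew, hab, neg_zero]
  simp only [short, mul_smul, spT_smul, sympForm_add_left, sympForm_add_right, sympForm_smul_left,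
    sympForm_self, hab, hba, add_zero, mul_zero]
  module

theorem short_add {a b : V} (hab : ω a b = 0) (c d : F) : short a b c * short a b d = short a b (c + d) := by
  have hba : ω b a = 0 := by rw [sympForm_skew, hab, neg_zero]
  refine sp_ext fun v => ?_
  simp only [mul_smul, short_smul hab, sympForm_add_left, sympForm_smul_left, sympForm_self, hab, hba,
    add_zero, mul_zero]
  module

theorem short_zero {a b : V} (hab : ω a b = 0) : short a b (0 : F) = 1 :=
  sp_ext fun v => by rw [short_smul hab, one_smul]; simp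

theorem short_inv {a b : V} (hab : ω a b = 0) (c : F) : (short a b c)⁻¹ = short a b (-c) :=
  inv_eq_of_mul_eq_one_right (by rw [short_add hab, add_neg_cancel, short_zero hab])

theorem conj_short (g : Sp) (a b : V) (c : F) : g * short a b c * g⁻¹ = short (g • a) (g • b) c := by
  simp only [short, ← smul_add]
  rw [← conj_spT g (a + b), ← conj_spT g a, ← conj_spT g b]
  group

theorem short_smul_left {a b : V} (hab : ω a b = 0) (l c : F) :
    short (l • a) b c = short a b (l * c) := by
  refine sp_ext fun v => ?_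
  rw [short_smul (by rw [sympForm_smul_left, hab, mul_zero]), short_smul hab, sympForm_smul_right]
  module

theorem short_smul_right {a b : V} (hab : ω a b = 0) (l c : F) :
    short a (l • b) c = short a b (l * c) := by
  refine sp_ext fun v => ?_
  rw [short_smul (by rw [sympForm_smul_right, hab, mul_zero]), short_smul hab, sympForm_smul_right]
  module

section Transitive

/-- The transvection group of `v` is inside `M`. -/
def InDir (M : Subgroup Sp) (v : V) : Prop :=
  ∀ c : F, (spT v c : Sp) ∈ M


theorem InDir.smul {M : Subgroup Sp} {v : V} (hv : InDir M v) {g : Sp} (hg : g ∈ M) : InDir M (g • v) := fun c => by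
  rw [← conj_spT]
  exact M.mul_mem (M.mul_mem hg (hv c)) (M.inv_mem hg)

theorem InDir.of_smul {M : Subgroup Sp} {v : V} {g : Sp} (hg : g ∈ M) (hv : InDir M (g • v)) : InDir M v := by
  simpa using hv.smul (M.inv_mem hg)

/-- The directions of a full set of transvections give everything. -/
theorem eq_top_of_directions {M : Subgroup Sp} (hn : 1 ≤ n) (hL : ∀ i, InDir M (eL i)) (hR : ∀ i, InDir M (eR i))
    (hS : ∃ s : F, s ≠ 0 ∧ ∀ i : Fin n, InDir M (s • eL i.castSucc + eL i.succ)) : M = ⊤ := by
  classical
  obtain ⟨s, hs, hS⟩ := hS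
  -- moves inside one plane
  have stepP : ∀ (v : V) i (p : F), v (.inr i) ≠ 0 →
      InDir M (Function.update v (.inl i) p) → InDir M v := by
    intro v i p hq h
    refine InDir.of_smul (hL i ((p - v (.inl i)) / v (.inr i))) ?_
    convert h using 1
    rw [spT_smul, form_eL, div_mul_cancel₀ _ hq]
    funext j
    rcases eq_or_ne j (Sum.inl i) with rfl | hj
    · simp
    · simp [hj]
  have stepQ : ∀ (v : V) i (q : F), v (.inl i) ≠ 0 →
      InDir M (Function.update v (.inr i) q) → InDir M v := by
    intro v i q hp h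
    refine InDir.of_smul (hR i ((q - v (.inr i)) / -v (.inl i))) ?_
    convert h using 1
    rw [spT_smul, form_eR, div_mul_cancel₀ _ (neg_ne_zero.2 hp)]
    funext j
    rcases eq_or_ne j (Sum.inr i) with rfl | hj
    · simp
    · simp [hj]
  have plane : ∀ (v : V) i (p q : F), (v (.inl i) ≠ 0 ∨ v (.inr i) ≠ 0) → (p ≠ 0 ∨ q ≠ 0) →
      InDir M (Function.update (Function.update v (.inl i) p) (.inr i) q) → InDir M v := by
    have base : ∀ (v : V) i (p q : F), v (.inr i) ≠ 0 → (p ≠ 0 ∨ q ≠ 0) →
        InDir M (Function.update (Function.update v (.inl i) p) (.inr i) q) → InDir M v := by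
      intro v i p q hv hpq h
      by_cases hp : p = 0
      · refine stepP v i 1 hv (stepQ _ i q (by simp) (stepP _ i p ?_ ?_))
        · simpa using hpq.resolve_left (not_not.2 hp)
        · convert h using 1
          funext j
          simp only [Function.update_apply]
          split_ifs <;> simp_all
      · exact stepP v i p hv (stepQ _ i q (by simpa using hp) h)
    intro v i p q hv hpq h
    by_cases hq : v (.inr i) = 0
    · refine stepQ v i 1 (hv.resolve_right (not_not.2 hq)) (base _ i p q (by simp) hpq ?_)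
      convert h using 1
      funext j
      simp only [Function.update_apply]
      split_ifs <;> simp_all
    · exact base v i p q hq hpq h
  have main : ∀ k : ℕ, ∀ v : V, v ≠ 0 →
      (∀ i : Fin (n + 1), k < i.val → v (.inl i) = 0 ∧ v (.inr i) = 0) → InDir M v := by
    intro k
    induction k with
    | zero =>
      intro v hv hsupp
      have h0 : v (.inl 0) ≠ 0 ∨ v (.inr 0) ≠ 0 := by
        by_contra h
        push Not at h
        refine hv (funext fun j => ?_)
        rcases j with j | j <;> induction j using Fin.cases with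
        | zero => first | exact h.1 | exact h.2
        | succ j =>
          obtain ⟨e1, e2⟩ := hsupp j.succ (by simp)
          first | exact e1 | exact e2
      refine plane v 0 1 0 h0 (Or.inl one_ne_zero) ?_
      convert hL 0 using 1
      funext j
      rcases j with j | j <;> induction j using Fin.cases with
        | zero => simp
        | succ j =>
          obtain ⟨e1, e2⟩ := hsupp j.succ (by simp)
          simp [Fin.succ_ne_zero, e1, e2]
    | succ k ih =>
      intro v hv hsupp
      rcases Nat.lt_or_ge k n with hk | hk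
      swap
      · exact ih v hv fun i hi => absurd i.isLt (by omega)
      set a : Fin (n + 1) := (⟨k, hk⟩ : Fin n).castSucc with ha
      set b : Fin (n + 1) := (⟨k, hk⟩ : Fin n).succ with hb
      have hab : a ≠ b := fun h => by simp [ha, hb, Fin.ext_iff] at h
      have hform : ∀ w : V, ω w (s • eL a + eL b) = s * w (.inr a) + w (.inr b) := fun w => by
        rw [sympForm_add_right, sympForm_smul_right, form_eL, form_eL]
      -- clear the top plane of a vector with both planes nonzero
      have clear : ∀ w : V, (∀ i : Fin (n + 1), k + 1 < i.val → w (.inl i) = 0 ∧ w (.inr i) = 0) →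
          (w (.inl a) ≠ 0 ∨ w (.inr a) ≠ 0) → (w (.inl b) ≠ 0 ∨ w (.inr b) ≠ 0) → InDir M w := by
        intro w hw hwa hwb
        refine plane w a 0 1 hwa (Or.inr one_ne_zero) (plane _ b 1 0
          (by simpa [hab, hab.symm] using hwb) (Or.inl one_ne_zero) ?_)
        set w' : V := Function.update (Function.update (Function.update (Function.update w (.inl a) 0)
          (.inr a) 1) (.inl b) 1) (.inr b) 0 with hw'
        refine InDir.of_smul (hS ⟨k, hk⟩ (-s⁻¹)) (ih _ ?_ ?_)
        · intro h
          have := congrFun h (.inr a)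
          simp [spT_smul, hab, hab.symm, hw', Pi.single_apply] at this
        · intro i hi
          rw [spT_smul, ← ha, ← hb, hform]
          rcases Nat.lt_or_ge (k + 1) i.val with hi' | hi'
          · have hia : i ≠ a := fun h => by simp [h, ha] at hi
            have hib : i ≠ b := fun h => by simp [h, hb] at hi'
            obtain ⟨e1, e2⟩ := hw i hi'
            constructor <;> simp [hw', hia, hib, e1, e2, Pi.single_apply]
          · have hib : i = b := Fin.ext (by simp [hb]; omega)
            subst hib
            constructor <;> simp [hw', hab, hab.symm, Pi.single_apply, hs]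
      by_cases hvb : v (.inl b) ≠ 0 ∨ v (.inr b) ≠ 0
      swap
      · push Not at hvb
        refine ih v hv fun i hi => ?_
        rcases Nat.lt_or_ge (k + 1) i.val with hi' | hi'
        · exact hsupp i hi'
        · rw [show i = b from Fin.ext (by simp [hb]; omega)]; exact hvb
      by_cases hva : v (.inl a) ≠ 0 ∨ v (.inr a) ≠ 0
      · exact clear v hsupp hva hvb
      push Not at hva
      refine plane v b 0 1 hvb (Or.inr one_ne_zero) (InDir.of_smul (hS ⟨k, hk⟩ 1) (clear _ ?_ ?_ ?_))
      · intro i hi
        have hia : i ≠ a := fun h => by simp [h, ha] at hi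
        have hib : i ≠ b := fun h => by simp [h, hb] at hi
        obtain ⟨e1, e2⟩ := hsupp i hi
        rw [spT_smul, ← ha, ← hb, hform]
        constructor <;> simp [hia, hib, e1, e2, Pi.single_apply]
      · rw [spT_smul, ← ha, ← hb, hform]
        left
        simp [hab, hva.1, hva.2, hs, Pi.single_apply]
      · rw [spT_smul, ← ha, ← hb, hform]
        right
        simp [hab, hab.symm, Pi.single_apply]
  rw [eq_top_iff, ← closure_spT_eq_top, Subgroup.closure_le]
  rintro _ ⟨w, c, rfl⟩
  rcases eq_or_ne w 0 with rfl | hw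
  · have : spT (0 : V) c = 1 := sp_ext fun x => by rw [spT_smul, one_smul, smul_zero, add_zero]
    rw [this]; exact M.one_mem
  · exact main n w hw (fun i hi => absurd i.isLt (by omega)) c

/-- The Coxeter element, one transvection group and one linking element give everything. -/
theorem eq_top_of_cox {M : Subgroup Sp} (hn : 1 ≤ n) (hw : cox F n ∈ M) (h0 : InDir M (eL 0))
    {g : Sp} (hg : g ∈ M) {s : F} (hs : s ≠ 0)
    (hgs : g • eL ((⟨0, hn⟩ : Fin n).succ) = s • eL 0 + eL ((⟨0, hn⟩ : Fin n).succ)) : M = ⊤ := by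
  have hL : ∀ i, InDir M (eL i) := by
    intro i
    induction i using Fin.induction with
    | zero => exact h0
    | succ i ih => rw [← cox_eL]; exact ih.smul hw
  have hR : ∀ i, InDir M (eR i) := by
    intro i
    induction i using Fin.induction with
    | zero => rw [← cox_eL_last]; exact (hL _).smul hw
    | succ i ih => rw [← cox_eR]; exact ih.smul hw
  refine eq_top_of_directions hn hL hR ⟨s, hs, ?_⟩
  rintro ⟨i, hi⟩
  induction i with
  | zero =>
    rw [show (⟨0, hi⟩ : Fin n).castSucc = 0 from rfl, ← hgs]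
    exact (hL _).smul hg
  | succ i ih =>
    have hi' : i < n := by omega
    rw [show (⟨i + 1, hi⟩ : Fin n).castSucc = (⟨i, hi'⟩ : Fin n).succ from rfl,
      ← cox_eL ⟨i, hi'⟩, ← cox_eL ⟨i + 1, hi⟩]
    have e := (ih hi').smul hw
    rwa [smul_add, smul_comm (cox F n) s] at e

end Transitive

variable [Finite F]

theorem exists_prim : ∃ k : Fˣ, ∀ u : Fˣ, ∃ j : ℤ, k ^ j = u := by
  obtain ⟨z, hz⟩ := IsCyclic.exists_generator (α := Fˣ)
  exact ⟨z, fun u => Subgroup.mem_zpowers_iff.1 (hz u)⟩

theorem exists_sq_add_sq_eq (c : F) : ∃ a b : F, a ^ 2 + b ^ 2 = c := by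
  classical
  have := Fintype.ofFinite F
  by_cases h2 : ringChar F = 2
  · obtain ⟨a, ha⟩ := FiniteField.isSquare_of_char_two h2 c
    exact ⟨a, 0, by rw [ha]; ring⟩
  · obtain ⟨a, b, hab⟩ := FiniteField.exists_root_sum_quadratic
      (f := Polynomial.X ^ 2) (g := Polynomial.X ^ 2 - Polynomial.C c)
      (Polynomial.degree_X_pow 2) (Polynomial.degree_X_pow_sub_C two_pos c)
      (FiniteField.odd_card_of_char_ne_two h2)
    exact ⟨a, b, by simpa [sub_eq_zero, add_sub, ← sub_eq_add_neg] using hab⟩

set_option maxHeartbeats 1000000 in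
/-- More than two field elements. -/
theorem exists_gens_of_three (hn : 1 ≤ n) (h3 : ∃ y : F, y ≠ 0 ∧ y ≠ 1) :
    ∃ a b : Sp, Subgroup.closure ({a, b} : Set Sp) = ⊤ := by
  classical
  have := Fintype.ofFinite F
  obtain ⟨k, hk⟩ := exists_prim (F := F)
  have hk1 : (k : F) ≠ 1 := by
    intro h
    obtain ⟨y, hy0, hy1⟩ := h3
    obtain ⟨j, hj⟩ := hk (Units.mk0 y hy0)
    rw [show k = 1 from Units.ext h, _root_.one_zpow] at hj
    exact hy1 (congrArg Units.val hj).symm
  set o : Fin n := ⟨0, hn⟩
  set e : V := eL (0 : Fin (n + 1))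
  set f : V := eR o.succ
  have hef : ω e f = 0 := by
    rw [form_eR]
    simp [e, (Fin.succ_ne_zero o)]
  set w := cox F n
  set H := scale (n := n) k
  set H' := w * H * w⁻¹
  set T := spT (eL o.succ) (1 : F)
  set X := short e f (1 : F)
  refine ⟨H * T, X * w, ?_⟩
  set M := Subgroup.closure ({H * T, X * w} : Set Sp)
  have ha : H * T ∈ M := Subgroup.subset_closure (Or.inl rfl)
  have hb : X * w ∈ M := Subgroup.subset_closure (Or.inr rfl)
  have hHT : Commute H T := by
    show H * T = T * H
    rw [← mul_inv_eq_iff_eq_mul, conj_spT, scale_eL k (Fin.succ_ne_zero _)]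
  have hTn : ∀ j : ℕ, T ^ j = spT (eL o.succ) (j : F) := fun j => by
    induction j with
    | zero => rw [pow_zero, Nat.cast_zero, spT_zero]
    | succ j ih => rw [pow_succ, ih, spT_add, Nat.cast_succ]
  have hHq : H ^ (Fintype.card F - 1) = 1 := by
    refine sp_ext fun v => ?_
    rw [one_smul]
    have : ∀ j : ℕ, (H ^ j) • v = scale (n := n) (k ^ j) • v := by
      intro j
      induction j with
      | zero =>
        rw [pow_zero, pow_zero, one_smul, scale_smul]
        funext i
        rcases i with i | i <;> simp [scaleEquiv]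
      | succ j ih =>
        rw [pow_succ', mul_smul, ih, scale_smul, scale_smul, scale_smul, pow_succ]
        funext i
        rcases i with i | i <;> simp [scaleEquiv] <;> split_ifs <;> ring
    rw [this, show k ^ (Fintype.card F - 1) = 1 from Units.ext (by
      rw [Units.val_pow_eq_pow_val, FiniteField.pow_card_sub_one_eq_one _ k.ne_zero]; rfl), scale_smul]
    funext i
    rcases i with i | i <;> simp [scaleEquiv]
  have hT : T ∈ M := by
    have e1 : (H * T) ^ (Fintype.card F - 1) = spT (eL o.succ) (-1) := by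
      rw [hHT.mul_pow, hHq, one_mul, hTn, Nat.cast_sub Fintype.card_pos, FiniteField.cast_card_eq_zero,
        zero_sub, Nat.cast_one]
    rw [show T = ((H * T) ^ (Fintype.card F - 1))⁻¹ by rw [e1, spT_inv, neg_neg]]
    exact M.inv_mem (M.pow_mem ha _)
  have hH : H ∈ M := (M.mul_mem_cancel_right hT).1 ha
  -- the torus elements on the root element
  have hHe : H • e = (k : F) • e := scale_eL_zero k
  have hHf : H • f = f := scale_eR k (Fin.succ_ne_zero _)
  have hwinv : w⁻¹ • f = eR (0 : Fin (n + 1)) := by
    rw [inv_smul_eq_iff, show (0 : Fin (n + 1)) = o.castSucc from rfl, cox_eR]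
  have hH'f : H' • f = ((k⁻¹ : Fˣ) : F) • f := by
    rw [mul_smul, mul_smul, hwinv, scale_eR_zero, smul_comm, ← hwinv, smul_inv_smul]
  have hH'e : H' • e = e := by
    have h1 : w⁻¹ • e = -(eR (Fin.last n)) := by
      rw [inv_smul_eq_iff, cox_smul]
      funext j
      rcases j with j | j <;> induction j using Fin.cases <;>
        simp [coxEquiv, e, Pi.single_apply, Fin.ext_iff]
      omega
    rw [mul_smul, mul_smul, h1, smul_neg, scale_eR k (fun h => by simp [Fin.ext_iff] at h; omega), ← h1,
      smul_inv_smul]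
  have hconj : ∀ c : F, H * short e f c * H⁻¹ = short e f ((k : F) * c) := fun c => by
    rw [conj_short, hHe, hHf, short_smul_left hef]
  have hconj' : ∀ c : F, H' * short e f c * H'⁻¹ = short e f (((k⁻¹ : Fˣ) : F) * c) := fun c => by
    rw [conj_short, hH'e, hH'f, short_smul_right hef]
  have hcomm : H * H' = H' * H := by
    refine sp_ext fun v => ?_
    simp only [H', mul_smul]
    rw [scale_smul, cox_smul, scale_smul, cox_smul, scale_smul, scale_smul]
    have e1 : ∀ z : V, w⁻¹ • z = coxEquiv.symm z := fun z => by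
      rw [inv_smul_eq_iff, cox_smul, LinearEquiv.apply_symm_apply]
    rw [e1, e1]
    funext i
    rcases i with i | i <;> induction i using Fin.cases with
      | zero => simp [scaleEquiv, coxEquiv]; try ring
      | succ i =>
        by_cases hi : i.castSucc = (0 : Fin (n + 1)) <;>
          simp [scaleEquiv, coxEquiv, hi] <;> try ring
  set m : F := ((k⁻¹ : Fˣ) : F)
  have hy : short e f (1 - m) * H' ∈ M := by
    have e1 : X * H' * X⁻¹ = short e f (1 - m) * H' := by
      calc X * H' * X⁻¹ = X * (H' * short e f (-1) * H'⁻¹) * H' := by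
            rw [← short_inv hef]; simp only [X]; group
        _ = short e f (1 - m) * H' := by rw [hconj', short_add hef, mul_neg_one, ← sub_eq_add_neg]
    rw [← e1, show X * H' * X⁻¹ = X * w * H * (X * w)⁻¹ by simp only [H']; group]
    exact M.mul_mem (M.mul_mem hb hH) (M.inv_mem hb)
  have hm1 : m ≠ 1 := fun h => hk1 (by rw [← inv_inv k, show (k⁻¹ : Fˣ) = 1 from Units.ext h]; simp)
  set c₀ : F := ((k : F) - 1) * (1 - m)
  have hc₀ : c₀ ≠ 0 := mul_ne_zero (sub_ne_zero.2 hk1) (sub_ne_zero.2 (Ne.symm hm1))
  have hz : short e f c₀ ∈ M := by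
    have e1 : H * (short e f (1 - m) * H') * H⁻¹ * (short e f (1 - m) * H')⁻¹ = short e f c₀ := by
      calc _ = H * short e f (1 - m) * H⁻¹ * (H * H' * H⁻¹ * H'⁻¹) * (short e f (1 - m))⁻¹ := by group
        _ = short e f ((k : F) * (1 - m)) * short e f (-(1 - m)) := by
          rw [hcomm, mul_inv_cancel_right, mul_inv_cancel, mul_one, short_inv hef, hconj]
        _ = _ := by rw [short_add hef]; congr 1; ring
    rw [← e1]
    exact M.mul_mem (M.mul_mem (M.mul_mem hH hy) (M.inv_mem hH)) (M.inv_mem hy)
  have hpowconj : ∀ (j : ℤ) (c : F),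
      H ^ j * short e f c * (H ^ j)⁻¹ = short e f (((k ^ j : Fˣ) : F) * c) := by
    intro j
    induction j using Int.induction_on with
    | zero => intro c; simp
    | succ j ih =>
      intro c
      rw [_root_.zpow_add_one, show H ^ (j : ℤ) * H * short e f c * (H ^ (j : ℤ) * H)⁻¹ =
        H ^ (j : ℤ) * (H * short e f c * H⁻¹) * (H ^ (j : ℤ))⁻¹ by group, hconj, ih, _root_.zpow_add_one,
        Units.val_mul, mul_assoc]
    | pred j ih =>
      intro c
      have e1 : H⁻¹ * short e f c * H = short e f (((k⁻¹ : Fˣ) : F) * c) := by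
        have e2 := hconj (((k⁻¹ : Fˣ) : F) * c)
        rw [Units.mul_inv_cancel_left] at e2
        rw [← e2]
        group
      rw [_root_.zpow_sub_one, show H ^ (-(j : ℤ)) * H⁻¹ * short e f c * (H ^ (-(j : ℤ)) * H⁻¹)⁻¹ =
        H ^ (-(j : ℤ)) * (H⁻¹ * short e f c * H) * (H ^ (-(j : ℤ)))⁻¹ by group, e1, ih, _root_.zpow_sub_one,
        Units.val_mul, mul_assoc]
  have hX : X ∈ M := by
    obtain ⟨j, hj⟩ := hk (Units.mk0 (1 / c₀) (div_ne_zero one_ne_zero hc₀))
    have e1 := hpowconj j c₀
    rw [hj, Units.val_mk0, div_mul_cancel₀ _ hc₀] at e1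
    show short e f 1 ∈ M
    rw [← e1]
    exact M.mul_mem (M.mul_mem (M.zpow_mem hH j) hz) (M.inv_mem (M.zpow_mem hH j))
  have hw : w ∈ M := (M.mul_mem_cancel_left hX).1 hb
  have h0 : spT e (1 : F) ∈ M := by
    have e1 : w⁻¹ * T * w⁻¹⁻¹ = spT e (1 : F) := by
      rw [conj_spT]
      congr 1
      rw [inv_smul_eq_iff]
      exact (cox_eL o).symm
    rw [← e1]
    exact M.mul_mem (M.mul_mem (M.inv_mem hw) hT) (M.inv_mem (M.inv_mem hw))
  have hsq : ∀ a : F, spT e (a ^ 2) ∈ M := by
    intro a
    rcases eq_or_ne a 0 with rfl | ha0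
    · rw [zero_pow two_ne_zero, spT_zero]; exact M.one_mem
    obtain ⟨j, hj⟩ := hk (Units.mk0 a ha0)
    have hje : ∀ j : ℤ, H ^ j • e = ((k ^ j : Fˣ) : F) • e := by
      intro j
      induction j using Int.induction_on with
      | zero => simp
      | succ j ih => rw [_root_.zpow_add_one, mul_smul, hHe, smul_comm, ih, smul_smul, _root_.zpow_add_one,
          Units.val_mul, mul_comm]
      | pred j ih =>
        rw [_root_.zpow_sub_one, mul_smul, show H⁻¹ • e = ((k⁻¹ : Fˣ) : F) • e by
          rw [inv_smul_eq_iff, smul_comm, hHe, smul_smul, Units.inv_mul, one_smul], smul_comm, ih, smul_smul,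
          _root_.zpow_sub_one, Units.val_mul, mul_comm]
    have e1 : H ^ j * spT e (1 : F) * (H ^ j)⁻¹ = spT e (a ^ 2) := by
      rw [conj_spT, hje, spT_smul_vec, mul_one, hj, Units.val_mk0]
    rw [← e1]
    exact M.mul_mem (M.mul_mem (M.zpow_mem hH j) h0) (M.inv_mem (M.zpow_mem hH j))
  refine eq_top_of_cox hn hw (fun c => ?_) hX (neg_ne_zero.2 one_ne_zero) ?_
  · obtain ⟨a, b, hab⟩ : ∃ a b : F, a ^ 2 + b ^ 2 = c := exists_sq_add_sq_eq c
    rw [← hab, ← spT_add]
    exact M.mul_mem (hsq a) (hsq b)
  · rw [short_smul hef, form_eL, form_eR]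
    simp [e, f, o]
    abel

set_option maxHeartbeats 1000000 in
/-- The field with two elements. -/
theorem exists_gens_of_two (hn : 2 ≤ n) (h2 : ∀ y : F, y = 0 ∨ y = 1) :
    ∃ a b : Sp, Subgroup.closure ({a, b} : Set Sp) = ⊤ := by
  classical
  have h11 : (1 : F) + 1 = 0 := by
    rcases h2 (1 + 1) with e | e
    · exact e
    · exact absurd (add_left_cancel (e.trans (add_zero 1).symm)) one_ne_zero
  have : CharP F 2 := CharTwo.of_one_ne_zero_of_two_eq_zero one_ne_zero (by rw [← one_add_one_eq_two, h11])
  set i₀ : Fin (n + 1) := 0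
  set i₁ : Fin (n + 1) := (⟨0, by omega⟩ : Fin n).succ
  set i₂ : Fin (n + 1) := (⟨1, by omega⟩ : Fin n).succ
  have h01 : i₀ ≠ i₁ := (Fin.succ_ne_zero _).symm
  have h02 : i₀ ≠ i₂ := (Fin.succ_ne_zero _).symm
  have h12 : i₁ ≠ i₂ := fun h => by simp [i₁, i₂, Fin.ext_iff] at h
  set U : Sp := short (eL i₀) (eR i₁) 1 * short (eL i₁) (eR i₀) 1
  set R := spT (eL i₂) (1 : F)
  have hab : ω (eL i₀) (eR i₁) = 0 := by rw [form_eR]; simp [h01.symm]
  have hcd : ω (eL i₁) (eR i₀) = 0 := by rw [form_eR]; simp [h01]
  have hU : ∀ v : V, U • v = v + (v (.inr i₁)) • eR i₀ + (-v (.inl i₀)) • eL i₁ +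
      (v (.inr i₀)) • eR i₁ + (-(v (.inl i₁) + -v (.inl i₀))) • eL i₀ + (v (.inr i₁)) • eR i₁ := by
    intro v
    simp only [U, mul_smul, short_smul hab, short_smul hcd, form_eL, form_eR, one_mul]
    simp [h01, h01.symm]
    module
  have hU3 : U ^ 3 = 1 := by
    refine sp_ext fun v => ?_
    rw [pow_three, mul_smul U, mul_smul U, one_smul, hU, hU, hU]
    funext j
    rcases j with j | j <;> rcases eq_or_ne j i₀ with rfl | hj₀ <;>
      [skip; rcases eq_or_ne j i₁ with rfl | hj₁; skip; rcases eq_or_ne j i₁ with rfl | hj₁] <;>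
      simp [Pi.single_apply, h01, h01.symm, *, CharTwo.neg_eq] <;> grind
  have hRR : R * R = 1 := by rw [spT_add, h11, spT_zero]
  have hUe2 : U • eL i₂ = eL i₂ := by
    rw [hU]
    simp [h02, h12]
  have hRU : Commute R U := by
    show R * U = U * R
    have h := conj_spT U (eL i₂) (1 : F)
    rw [hUe2, mul_inv_eq_iff_eq_mul] at h
    exact h.symm
  refine ⟨R * U, cox F n, ?_⟩
  set M := Subgroup.closure ({R * U, cox F n} : Set Sp)
  have ha : R * U ∈ M := Subgroup.subset_closure (Or.inl rfl)
  have hw : cox F n ∈ M := Subgroup.subset_closure (Or.inr rfl)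
  have hR : R ∈ M := by
    have e : (R * U) ^ 3 = R := by rw [hRU.mul_pow, hU3, mul_one, pow_three, hRR, mul_one]
    rw [← e]
    exact M.pow_mem ha 3
  have h0 : InDir M (eL i₀) := by
    refine InDir.of_smul (g := cox F n * cox F n) (M.mul_mem hw hw) ?_
    rw [mul_smul, show i₀ = (⟨0, by omega⟩ : Fin n).castSucc from rfl, cox_eL,
      show (⟨0, by omega⟩ : Fin n).succ = (⟨1, by omega⟩ : Fin n).castSucc from rfl, cox_eL]
    intro c
    rcases h2 c with rfl | rfl
    · rw [spT_zero]; exact M.one_mem
    · exact hR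
  refine eq_top_of_cox (by omega) hw h0 ((M.mul_mem_cancel_left hR).1 ha) (s := 1) one_ne_zero ?_
  show U • eL i₁ = _
  rw [hU]
  simp [i₀, h01, CharTwo.neg_eq]
  exact add_comm _ _

end CfsgLib.KnownSimple.TwoGen.Symp
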