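import Cfsg.Agent.Lib.KnownSimple.TwoGen.UnitaryOps
import Cfsg.Agent.Lib.Geometric.UnitaryGen

/-!
A monomial isometry rotating a hyperbolic frame, together with one root group, yields every transvection.
-/

set_option autoImplicit false
set_option linter.unusedSectionVars false

namespace CfsgLib.KnownSimple.TwoGen.Unitary

open CfsgLib.Geometric CfsgLib.Geometric.Unitary

variable {ι : Type} [Fintype ι] [DecidableEq ι] {F : Type*} [Field F]
variable {σ : F ≃+* F} {f : (ι → F) → (ι → F) → F}

/-- A hyperbolic frame rotated by an isometry, with an orthogonal vector `d` (which may be zero). -/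
structure Frame (f : (ι → F) → (ι → F) → F) (m : ℕ) where
  /-- the frame -/
  z : ℕ → (ι → F)
  /-- the rotation -/
  w : GL ι F
  /-- the vector orthogonal to the frame -/
  d : ι → F
  one_le : 1 ≤ m
  w_isom : w ∈ isom f
  w_z : ∀ j, ap w (z j) = z (j + 1)
  w_d : ap w d = d
  period : ∀ j, z (j + 2 * m) = -z j
  orth : ∀ e, e < 2 * m → e ≠ m → f (z 0) (z e) = 0
  link : f (z m) (z 0) = 1
  d_orth : f d (z 0) = 0
  d_cases : d = 0 ∨ f d d ≠ 0
  span : ∀ v, (∀ j, j < 2 * m → f v (z j) = 0) → f v d = 0 → v = 0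

namespace Frame

variable (hf : IsSkewForm σ f) {m : ℕ} (P : Frame f m)

theorem z_pow (i j : ℕ) : ap (P.w ^ i) (P.z j) = P.z (j + i) := by
  induction i with
  | zero => simp
  | succ i ih => rw [pow_succ', ap_mul, ih, P.w_z]; rfl

theorem d_pow (i : ℕ) : ap (P.w ^ i) P.d = P.d := by
  induction i with
  | zero => simp
  | succ i ih => rw [pow_succ', ap_mul, ih, P.w_d]

theorem shift (i a b : ℕ) : f (P.z (a + i)) (P.z (b + i)) = f (P.z a) (P.z b) := by
  rw [← P.z_pow i a, ← P.z_pow i b, mem_isom_iff.mp (pow_mem P.w_isom i)]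

include hf in
theorem iso (a : ℕ) : f (P.z a) (P.z a) = 0 := by
  have h := P.shift a 0 0
  rw [Nat.zero_add] at h
  rw [h]
  exact P.orth 0 (by have := P.one_le; omega) (by have := P.one_le; omega)

include hf in
theorem orth_zero {e : ℕ} (h : e % (2 * m) ≠ m) : f (P.z 0) (P.z e) = 0 := by
  induction e using Nat.strong_induction_on with
  | _ e ih =>
    rcases Nat.lt_or_ge e (2 * m) with he | he
    · exact P.orth e he (by rwa [Nat.mod_eq_of_lt he] at h)
    · rw [show e = e - 2 * m + 2 * m by omega, P.period, Unitary.neg_right hf,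
        ih _ (by have := P.one_le; omega) (by rwa [← Nat.mod_eq_sub_mod he]), neg_zero]

include hf in
theorem orth_of_le {a b : ℕ} (hab : a ≤ b) (h : (b - a) % (2 * m) ≠ m) :
    f (P.z a) (P.z b) = 0 ∧ f (P.z b) (P.z a) = 0 := by
  have e : f (P.z a) (P.z b) = 0 := by
    have := P.shift a 0 (b - a)
    rw [Nat.zero_add, Nat.sub_add_cancel hab, P.orth_zero hf h] at this
    exact this
  exact ⟨e, (eq_zero_comm hf).mp e⟩

include hf in
theorem orth_lt {a b : ℕ} (ha : a < 2 * m) (hb : b < 2 * m) (h1 : a + m ≠ b) (h2 : b + m ≠ a) :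
    f (P.z a) (P.z b) = 0 := by
  rcases le_total a b with hab | hab
  · exact (P.orth_of_le hf hab (by rw [Nat.mod_eq_of_lt (by omega)]; omega)).1
  · exact (P.orth_of_le hf hab (by rw [Nat.mod_eq_of_lt (by omega)]; omega)).2

theorem link_at (a : ℕ) : f (P.z (a + m)) (P.z a) = 1 := by
  have := P.shift a m 0
  rwa [Nat.zero_add, Nat.add_comm m a, P.link] at this

include hf in
theorem link_ne (a : ℕ) : f (P.z a) (P.z (a + m)) ≠ 0 := fun h => by
  have := (eq_zero_comm hf).mp h
  rw [P.link_at] at this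
  exact one_ne_zero this

theorem d_z (a : ℕ) : f P.d (P.z a) = 0 := by
  have := mem_isom_iff.mp (pow_mem P.w_isom a) P.d (P.z 0)
  rw [P.d_pow, P.z_pow, Nat.zero_add, P.d_orth] at this
  exact this

variable {M : Subgroup (GL ι F)} (hw : P.w ∈ M)

include hw in
theorem pmem_shift {a b : ℕ} (h : PMem hf M (P.z a) (P.z b)) (hba : f (P.z b) (P.z a) = 0) (i : ℕ) :
    PMem hf M (P.z (a + i)) (P.z (b + i)) := by
  rw [← P.z_pow i a, ← P.z_pow i b]
  exact h.conj hf (pow_mem P.w_isom i) (M.pow_mem hw i) (P.iso hf a) hba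

include hw in
theorem tmem_shift (h : TMem hf M (P.z 0)) (i : ℕ) : TMem hf M (P.z i) := by
  rw [← Nat.zero_add i, ← P.z_pow i 0]
  exact h.conj hf (pow_mem P.w_isom i) (M.pow_mem hw i) (P.iso hf 0)

variable [Finite F]

include hw in
/-- With the root groups at the first vector every transvection is present. -/
theorem hasT_of_roots (hP : ∀ i, 1 ≤ i → i < 2 * m → i ≠ m → PMem hf M (P.z 0) (P.z i))
    (hT : TMem hf M (P.z 0)) (hD : P.d ≠ 0 → DMem hf M (P.z 0) P.d) : HasT hf M := by
  classical
  have h1m := P.one_le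
  -- clearing
  have clear : ∀ (s : Finset ℕ) (v : ι → F), f v (P.z 0) ≠ 0 → f v v = 0 →
      (∀ i ∈ s, 1 ≤ i ∧ i < 2 * m ∧ i ≠ m) →
      ∃ g ∈ M, g ∈ isom f ∧ f (ap g v) (P.z 0) = f v (P.z 0) ∧ f (ap g v) P.d = f v P.d ∧
        ∀ i ∈ s, f (ap g v) (P.z i) = 0 := by
    intro s
    induction s using Finset.induction with
    | empty => exact fun v _ _ _ => ⟨1, one_mem _, one_mem _, by simp, by simp, by simp⟩
    | @insert a s has ih =>
      intro v hv hvv hs
      obtain ⟨g, hgM, hgi, hg0, hgd, hgs⟩ := ih v hv hvv fun i hi => hs i (Finset.mem_insert_of_mem hi)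
      obtain ⟨ha1, ha2, ha3⟩ := hs a (Finset.mem_insert_self a s)
      obtain ⟨b, hb1, hb2, hb3, hpair⟩ : ∃ b, 1 ≤ b ∧ b < 2 * m ∧ b ≠ m ∧ (a + m = b ∨ b + m = a) := by
        rcases Nat.lt_or_ge a m with h | h
        · exact ⟨a + m, by omega, by omega, by omega, Or.inl rfl⟩
        · exact ⟨a - m, by omega, by omega, by omega, Or.inr (by omega)⟩
      set u := ap g v
      have hba : f (P.z b) (P.z a) ≠ 0 := by
        rcases hpair with rfl | rfl
        · rw [P.link_at]; exact one_ne_zero
        · exact P.link_ne hf b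
      have hzb : f (P.z b) (P.z 0) = 0 := P.orth_lt hf hb2 (by omega) (by omega) (by omega)
      set t := -f u (P.z a) / (f u (P.z 0) * f (P.z b) (P.z a))
      have hd' : f (t • P.z b) (P.z 0) = 0 := by rw [hf.smul_left, hzb, mul_zero]
      set h := E hf (P.z 0) (t • P.z b) 0 (P.iso hf 0) hd'
      have hh : h ∈ M := hP b hb1 hb2 hb3 t _ _
      have hi : h ∈ isom f := (E_mem hf (by
        rw [map_zero, sub_zero, hf.smul_left, Unitary.smul_right hf, P.iso hf, mul_zero, mul_zero])).1
      refine ⟨h * g, M.mul_mem hh hgM, mul_mem hi hgi, ?_, ?_, ?_⟩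
      · rw [ap_mul]
        simp only [u, h, ap_E hf, hf.add_left, hf.smul_left, hzb, P.iso hf, hg0]
        ring
      · rw [ap_mul]
        simp only [u, h, ap_E hf, hf.add_left, hf.smul_left, (eq_zero_comm hf).mp (P.d_z _), hgd]
        ring
      · intro i hi'
        rw [ap_mul]
        rcases Finset.mem_insert.1 hi' with rfl | his
        · simp only [u, h, ap_E hf, hf.add_left, hf.smul_left,
            P.orth_lt hf (show 0 < 2 * m by omega) ha2 (by omega) (by omega)]
          simp only [t, u]
          rw [hg0]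
          field_simp
          ring
        · obtain ⟨hi1, hi2, hi3⟩ := hs i hi'
          have hia : i ≠ a := fun e => has (e ▸ his)
          simp only [u, h, ap_E hf, hf.add_left, hf.smul_left,
            P.orth_lt hf (show 0 < 2 * m by omega) hi2 (by omega) (by omega),
            P.orth_lt hf hb2 hi2 (by omega) (by omega), hgs i his]
          ring
  -- every isotropic vector is moved to a multiple of the partner of the first
  have move : ∀ v : ι → F, v ≠ 0 → f v v = 0 →
      ∃ g ∈ M, g ∈ isom f ∧ ∃ b : F, ap g v = b • P.z m := by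
    intro v hv hvv
    obtain ⟨j, hj2, hj⟩ : ∃ j, j < 2 * m ∧ f v (P.z j) ≠ 0 := by
      by_contra hc
      push Not at hc
      refine hv (P.span v hc ?_)
      rcases P.d_cases with h | h
      · rw [h, Unitary.zero_right hf]
      by_contra hne
      set a := f v P.d / f P.d P.d
      have h0 : v - a • P.d = 0 := P.span _ (fun i hi => by
        rw [Unitary.sub_left hf, hf.smul_left, hc i hi, P.d_z, mul_zero, sub_zero]) (by
        rw [Unitary.sub_left hf, hf.smul_left, div_mul_cancel₀ _ h, sub_self])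
      rw [sub_eq_zero] at h0
      rw [h0, hf.smul_left, Unitary.smul_right hf] at hvv
      rcases mul_eq_zero.1 hvv with e | e
      · exact hne (by rw [h0, hf.smul_left, e, zero_mul])
      · rcases mul_eq_zero.1 e with e | e
        · rw [EmbeddingLike.map_eq_zero_iff] at e
          exact hne (by rw [h0, hf.smul_left, e, zero_mul])
        · exact h e
    set r := (P.w ^ j)⁻¹
    have hri : r ∈ isom f := inv_mem (pow_mem P.w_isom j)
    have hrM : r ∈ M := M.inv_mem (M.pow_mem hw j)
    set u := ap r v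
    have huu : f u u = 0 := isotropic_ap hf hri hvv
    have hu0 : f u (P.z 0) ≠ 0 := by
      have e : ap r (P.z j) = P.z 0 := by
        conv_lhs => rw [← Nat.zero_add j, ← P.z_pow j 0]
        exact ap_inv_ap _ _
      rw [← e, mem_isom_iff.mp hri]
      exact hj
    -- clear the vector `d`
    obtain ⟨g₁, hg₁M, hg₁i, hg₁0, hg₁d⟩ : ∃ g ∈ M, g ∈ isom f ∧ f (ap g u) (P.z 0) = f u (P.z 0) ∧
        f (ap g u) P.d = 0 := by
      rcases P.d_cases with h | h
      · exact ⟨1, one_mem _, one_mem _, by simp, by simp [h, Unitary.zero_right hf]⟩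
      obtain ⟨c, hc, hm⟩ := hD (fun e => h (by rw [e, Unitary.zero_left hf]))
        (-f u P.d / (f u (P.z 0) * f P.d P.d))
      set l := -f u P.d / (f u (P.z 0) * f P.d P.d) with hl
      have hd0 : f (l • P.d) (P.z 0) = 0 := by rw [hf.smul_left, P.d_z, mul_zero]
      refine ⟨_, hm (P.iso hf 0) hd0, (E_mem hf hc).1, ?_, ?_⟩
      · simp only [ap_E hf, hf.add_left, hf.smul_left, P.d_z, P.iso hf]
        ring
      · simp only [ap_E hf, hf.add_left, hf.smul_left, (eq_zero_comm hf).mp (P.d_z 0)]
        rw [hl]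
        field_simp
        ring
    obtain ⟨g₂, hg₂M, hg₂i, hg₂0, hg₂d, hg₂s⟩ := clear
      ((Finset.range (2 * m)).filter fun i => 1 ≤ i ∧ i ≠ m) (ap g₁ u) (by rwa [hg₁0])
      (isotropic_ap hf hg₁i huu)
      (fun i hi => by
        simp only [Finset.mem_filter, Finset.mem_range] at hi
        exact ⟨hi.2.1, hi.1, hi.2.2⟩)
    set y := ap g₂ (ap g₁ u) with hy
    have hyy : f y y = 0 := isotropic_ap hf hg₂i (isotropic_ap hf hg₁i huu)
    have hy0 : f y (P.z 0) ≠ 0 := by rwa [hg₂0, hg₁0]
    have hlink' : f (P.z 0) (P.z m) = -1 := by rw [hf.skew, P.link, map_one]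
    set β := f y (P.z 0)
    set α := -f y (P.z m)
    have hyc : y = α • P.z 0 + β • P.z m := by
      refine sub_eq_zero.1 (P.span _ (fun i hi => ?_) ?_)
      · simp only [Unitary.sub_left hf, hf.add_left, hf.smul_left]
        by_cases hi0 : i = 0
        · subst hi0
          rw [P.iso hf, P.link, mul_zero, mul_one, zero_add, sub_self]
        by_cases him : i = m
        · subst him
          rw [P.iso hf, hlink']
          ring
        rw [hg₂s i (by simp only [Finset.mem_filter, Finset.mem_range]; omega),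
          P.orth_lt hf (show 0 < 2 * m by omega) hi (by omega) (by omega),
          P.orth_lt hf (show m < 2 * m by omega) hi (by omega) (by omega)]
        ring
      · simp only [Unitary.sub_left hf, hf.add_left, hf.smul_left, (eq_zero_comm hf).mp (P.d_z _)]
        rw [hg₂d, hg₁d]
        ring
    have hfix : σ (-α / β) = -α / β := by
      rw [hyc] at hyy
      simp only [hf.add_left, Unitary.add_right hf, hf.smul_left, Unitary.smul_right hf, P.iso hf,
        P.link, hlink'] at hyy
      have hσβ : σ β ≠ 0 := (map_ne_zero_iff _ σ.injective).2 hy0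
      rw [map_div₀, map_neg]
      field_simp
      linear_combination -hyy
    refine ⟨T hf (P.z 0) (-α / β) (P.iso hf 0) * g₂ * g₁ * r, M.mul_mem (M.mul_mem (M.mul_mem
      (hT _ _ hfix) hg₂M) hg₁M) hrM, mul_mem (mul_mem (mul_mem (T_mem_isom hf _ hfix) hg₂i) hg₁i) hri,
      β, ?_⟩
    rw [ap_mul, ap_mul, ap_mul, ← hy, ap_T hf, show f y (P.z 0) = β from rfl, div_mul_cancel₀ _ hy0]
    nth_rewrite 1 [hyc]
    module
  intro v hv c hc
  by_cases hv0 : v = 0
  · rw [show T hf v c hv = 1 from gl_ext fun x => by simp [ap_T hf, hv0]]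
    exact one_mem _
  obtain ⟨g, hgM, hgi, b, hb⟩ := move v hv0 hv
  have hTm := P.tmem_shift hf hw hT m
  have hbz := isotropic_smul hf (P.iso hf m) b
  have e : g * T hf v c hv * g⁻¹ = T hf (P.z m) (b * σ b * c) (P.iso hf m) := by
    rw [conj_T hf hgi, ← T_smul hf (P.iso hf m) b c hbz]
    apply gl_ext
    intro x
    rw [ap_T hf, ap_T hf, hb]
  have : T hf v c hv = g⁻¹ * T hf (P.z m) (b * σ b * c) (P.iso hf m) * g := by rw [← e]; group
  rw [this]
  exact M.mul_mem (M.mul_mem (M.inv_mem hgM)
    (hTm _ _ (by rw [map_mul, map_mul, hf.involutive, hc, mul_comm (σ b)]))) hgM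

include hw in
/-- Even dimension: one short root group suffices. -/
theorem hasT_of_short (hm : 2 ≤ m) (hd : P.d = 0) (h : PMem hf M (P.z 0) (P.z (m + 1))) : HasT hf M := by
  have h01 : f (P.z (m + 1)) (P.z 0) = 0 :=
    (P.orth_of_le hf (Nat.zero_le _) (by rw [Nat.sub_zero, Nat.mod_eq_of_lt (by omega)]; omega)).2
  have base : ∀ i, PMem hf M (P.z i) (P.z (i + m + 1)) := fun i => by
    have := P.pmem_shift hf hw h h01 i
    rwa [Nat.zero_add, show m + 1 + i = i + m + 1 by ring] at this
  have all : ∀ k, k + 1 < m → ∀ j, PMem hf M (P.z j) (P.z (j + m + (k + 1))) := by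
    intro k
    induction k with
    | zero => exact fun _ => base
    | succ k ih =>
      intro hk j
      have h1 := ih (by omega) j
      have h2 := base (j + (k + 1))
      have e : j + (k + 1) + m + 1 = j + m + (k + 2) := by ring
      rw [e] at h2
      have o : ∀ a b : ℕ, ∀ e : ℕ, b = a + e → e < 2 * m → e ≠ m →
          f (P.z b) (P.z a) = 0 ∧ f (P.z a) (P.z b) = 0 := fun a b e he he1 he2 => by
        have := P.orth_of_le hf (a := a) (b := b) (by omega)
          (by rw [show b - a = e by omega, Nat.mod_eq_of_lt he1]; exact he2)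
        exact ⟨this.2, this.1⟩
      refine h1.comp hf h2 (P.iso hf _) (P.iso hf _) (P.iso hf _) (P.iso hf _) ?_
        (o _ _ (m + (k + 1)) (by ring) (by omega) (by omega)).1
        (o _ _ (k + 1) (by ring) (by omega) (by omega)).1
        (o _ _ 1 (by ring) (by omega) (by omega)).1
        (o _ _ (m + (k + 2)) (by ring) (by omega) (by omega)).1
        (o _ _ (m + 1) (by ring) (by omega) (by omega)).1
      rw [show j + m + (k + 1) = j + (k + 1) + m by ring]
      exact P.link_ne hf _
  have hPer : ∀ i, P.z (i + 2 * m) = (-1 : F) • P.z i := fun i => by rw [P.period, neg_one_smul]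
  have hT : TMem hf M (P.z 0) := by
    obtain ⟨k, rfl⟩ : ∃ k, m = k + 2 := ⟨m - 2, by omega⟩
    have h1 := all k (by omega) 0
    have h2 := base (2 * k + 3 - (k + 2))
    rw [show 2 * k + 3 - (k + 2) + (k + 2) + 1 = 0 + 2 * (k + 2) by omega, hPer] at h2
    have h2' := h2.smul_right hf (-1)
    rw [smul_smul, neg_one_mul, neg_neg, one_smul] at h2'
    refine h1.long hf h2' (P.iso hf _) (P.iso hf _) (P.iso hf _) ?_
      (P.orth_of_le hf (Nat.zero_le _) (by rw [Nat.sub_zero, Nat.mod_eq_of_lt (by omega)]; omega)).2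
      (P.orth_of_le hf (Nat.zero_le _) (by rw [Nat.sub_zero, Nat.mod_eq_of_lt (by omega)]; omega)).2
    rw [show 0 + (k + 2) + (k + 1) = 2 * k + 3 - (k + 2) + (k + 2) by omega]
    exact P.link_ne hf _
  refine P.hasT_of_roots hf hw (fun i hi1 hi2 him => ?_) hT (fun e => absurd hd e)
  rcases Nat.lt_or_ge i m with hlt | hge
  · have h1 := all (m - i - 1) (by omega) i
    rw [show i + m + (m - i - 1 + 1) = 0 + 2 * m by omega, hPer] at h1
    have h1' := h1.smul_right hf (-1)
    rw [smul_smul, neg_one_mul, neg_neg, one_smul] at h1'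
    exact h1'.symm hf (P.iso hf _) (P.orth_lt hf (by omega) hi2 (by omega) (by omega))
  · have h1 := all (i - m - 1) (by omega) 0
    rwa [show 0 + m + (i - m - 1 + 1) = i by omega] at h1

include hw in
/-- Odd dimension: one root group along the anisotropic vector suffices. -/
theorem hasT_of_dmem (hdd : f P.d P.d ≠ 0) {s : ℕ} (hs : s < 2 * m) (h : DMem hf M (P.z s) P.d) :
    HasT hf M := by
  have hshift : ∀ i, DMem hf M (P.z (s + i)) P.d := fun i => by
    rw [← P.z_pow i s]
    exact h.conj hf (pow_mem P.w_isom i) (M.pow_mem hw i) (P.iso hf s) (P.d_z s) (P.d_pow i)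
  have hall : ∀ i, DMem hf M (P.z i) P.d := fun i => by
    have h1 := hshift (i + 2 * m - s)
    rw [show s + (i + 2 * m - s) = i + 2 * m by omega, P.period] at h1
    intro t
    obtain ⟨c, hc, hm⟩ := h1 (-t)
    refine ⟨c, by rw [hc]; simp [neg_smul, Unitary.neg_left hf, Unitary.neg_right hf], fun hu hvu => ?_⟩
    have hn : f ((-t) • P.d) (-P.z i) = 0 := by rw [hf.smul_left, Unitary.neg_right hf, P.d_z, neg_zero, mul_zero]
    have hnn : f (-P.z i) (-P.z i) = 0 := by rw [Unitary.neg_left hf, Unitary.neg_right hf, P.iso hf]; simp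
    have e : E hf (P.z i) (t • P.d) c hu hvu = E hf (-P.z i) ((-t) • P.d) c hnn hn := by
      apply gl_ext
      intro x
      simp only [ap_E hf, Unitary.neg_right hf, Unitary.smul_right hf, map_neg]
      module
    rw [e]
    exact hm _ _
  refine P.hasT_of_roots hf hw (fun i hi1 hi2 him => ?_) ((hall 0).long hf (P.d_z 0) hdd) fun _ => hall 0
  exact (hall i).pair hf (hall 0) (P.iso hf _) (P.iso hf _)
    (P.orth_lt hf (by omega) hi2 (by omega) (by omega)) (P.d_z _) (P.d_z _) hdd

end Frame

end CfsgLib.KnownSimple.TwoGen.Unitary
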