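import Cfsg.Agent.Lib.KnownSimple.TwoGen.UnitaryFrame
import Cfsg.Agent.Lib.KnownSimple.TwoGen.Symp
import Cfsg.Agent.Lib.ClassicalForms.Unitary.Simple
import Cfsg.Agent.Lib.Forms.Hermitian
import Cfsg.Agent.Lib.Forms.UnitaryForm

/-!
A hyperbolic model of the unitary groups, two generators there, and the transfer to the standard form.
-/

set_option autoImplicit false
set_option linter.unusedSectionVars false

open Matrix CfsgLib.Geometric CfsgLib.Geometric.Unitary

namespace CfsgLib.KnownSimple.TwoGen.Unitary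

variable {F : Type*} [Field F]

/-- The index type of the model. -/
abbrev Idx (n r : ℕ) : Type := (Fin (n + 1) ⊕ Fin (n + 1)) ⊕ Fin r

variable {n r : ℕ}

/-- The model form. -/
def mform (σ : F ≃+* F) (η : F) (u v : Idx n r → F) : F :=
  (∑ i, (u (.inl (.inr i)) * σ (v (.inl (.inl i))) - u (.inl (.inl i)) * σ (v (.inl (.inr i))))) +
    ∑ i, η * (u (.inr i) * σ (v (.inr i)))

theorem mform_single (σ : F ≃+* F) (η : F) (v : Idx n r → F) :
    (∀ i, mform σ η v (Pi.single (.inl (.inl i)) 1) = v (.inl (.inr i))) ∧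
      (∀ i, mform σ η v (Pi.single (.inl (.inr i)) 1) = -v (.inl (.inl i))) ∧
      ∀ i, mform σ η v (Pi.single (.inr i) 1) = η * v (.inr i) := by
  refine ⟨fun i => ?_, fun i => ?_, fun i => ?_⟩ <;>
    simp [mform, Pi.single_apply, apply_ite σ, mul_ite]

theorem isSkew_mform {σ : F ≃+* F} (hσ : σ ≠ RingEquiv.refl F) (hσ2 : ∀ a, σ (σ a) = a) {η : F}
    (hη : η ≠ 0) (hη' : σ η = -η) : IsSkewForm σ (mform (n := n) (r := r) σ η) := by
  refine ⟨hσ, hσ2, fun x y v => ?_, fun c x v => ?_, fun v w => ?_, fun v hv => ?_⟩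
  · simp only [mform, Pi.add_apply, ← Finset.sum_add_distrib, add_mul, mul_add]
    rw [show ∀ a b c d : F, a + b + (c + d) = (a + c) + (b + d) from fun a b c d => by ring,
      ← Finset.sum_add_distrib, ← Finset.sum_add_distrib]
    congr 1
    exact Finset.sum_congr rfl fun i _ => by ring
  · simp only [mform, Pi.smul_apply, smul_eq_mul, mul_add, Finset.mul_sum]
    congr 1 <;> exact Finset.sum_congr rfl fun i _ => by ring
  · simp only [mform, map_add, map_sum, map_sub, map_mul, hσ2, hη', neg_add, ← Finset.sum_neg_distrib]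
    congr 1 <;> exact Finset.sum_congr rfl fun i _ => by ring
  · have h : ∃ x, mform σ η v x ≠ 0 := by
      by_contra h
      push Not at h
      obtain ⟨h1, h2, h3⟩ := mform_single σ η v
      refine hv (funext fun j => ?_)
      rcases j with (i | i) | i
      · have := h2 i
        rwa [h, eq_comm, neg_eq_zero] at this
      · rw [← h1 i, h]; rfl
      · have := h3 i
        rw [h] at this
        exact (mul_eq_zero.1 this.symm).resolve_left hη
    obtain ⟨x, hx⟩ := h
    refine ⟨⟨x, fun h0 => hx ?_⟩, ⟨x, hx⟩⟩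
    have : mform σ η v x = -σ (mform σ η x v) := by
      simp only [mform, map_add, map_sum, map_sub, map_mul, hσ2, hη', neg_add, ← Finset.sum_neg_distrib]
      congr 1 <;> exact Finset.sum_congr rfl fun i _ => by ring
    rw [this, h0, map_zero, neg_zero]

/-- The rotation as a linear equivalence. -/
def rotEquiv (n r : ℕ) (F : Type*) [Field F] : (Idx n r → F) ≃ₗ[F] (Idx n r → F) where
  toFun v := Sum.elim (Symp.coxEquiv fun i => v (.inl i)) fun i => v (.inr i)
  invFun v := Sum.elim (Symp.coxEquiv.symm fun i => v (.inl i)) fun i => v (.inr i)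
  map_add' u v := by
    funext i
    rcases i with i | i
    · exact congrFun (map_add Symp.coxEquiv (fun i => u (.inl i)) fun i => v (.inl i)) i
    · rfl
  map_smul' a v := by
    funext i
    rcases i with i | i
    · exact congrFun (map_smul Symp.coxEquiv a fun i => v (.inl i)) i
    · rfl
  left_inv v := by
    funext i
    rcases i with i | i
    · exact congrFun (Symp.coxEquiv.symm_apply_apply fun i => v (.inl i)) i
    · rfl
  right_inv v := by
    funext i
    rcases i with i | i
    · exact congrFun (Symp.coxEquiv.apply_symm_apply fun i => v (.inl i)) i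
    · rfl

theorem rot_mem {σ : F ≃+* F} {η : F} :
    ofEquiv (rotEquiv n r F) ∈ isom (mform σ η) ⊓ Cfsg.Geo.specialLinear (Idx n r) F := by
  refine ⟨fun u v => ?_, (mem_specialLinear_iff _).2 ?_⟩
  · show mform σ η (ap _ u) (ap _ v) = _
    rw [ap_ofEquiv, ap_ofEquiv, mform, mform, Fin.sum_univ_succ,
      Fin.sum_univ_castSucc (fun i => u (.inl (.inr i)) * σ (v (.inl (.inl i))) -
        u (.inl (.inl i)) * σ (v (.inl (.inr i))))]
    simp [rotEquiv, Symp.coxEquiv]
    ring
  · have e : ((ofEquiv (rotEquiv n r F) : GL (Idx n r) F) : Matrix (Idx n r) (Idx n r) F) =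
        Matrix.fromBlocks (Symp.cox F n : Matrix _ _ F) 0 0 1 := Matrix.ext_of_mulVec_single fun j => by
      rw [← ap_def, ap_ofEquiv, Matrix.fromBlocks_mulVec, Matrix.zero_mulVec, Matrix.zero_mulVec,
        Matrix.one_mulVec, add_zero, zero_add, ← CfsgLib.ClassicalLinear.sp_smul_eq, Symp.cox_smul]
      rfl
    rw [e, Matrix.det_fromBlocks_zero₁₂, Matrix.det_one, mul_one, SymplecticGroup.det_eq_one (Symp.cox F n).2]

/-- The frame vectors of the model. -/
def frameVec (n r : ℕ) (F : Type*) [Field F] (j : ℕ) : Idx n r → F :=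
  ap ((ofEquiv (rotEquiv n r F)) ^ j) (Pi.single (.inl (.inl 0)) 1)

theorem frameVec_succ (j : ℕ) :
    frameVec n r F (j + 1) = rotEquiv n r F (frameVec n r F j) := by
  rw [frameVec, pow_succ', ap_mul, ap_ofEquiv]; rfl

theorem rot_single (i : Fin (n + 1) ⊕ Fin (n + 1)) :
    rotEquiv n r F (Pi.single (.inl i) 1) = Sum.elim (Symp.coxEquiv (Pi.single i 1)) 0 := by
  funext j
  rcases j with j | j
  · simp only [rotEquiv, LinearEquiv.coe_mk, LinearMap.coe_mk, AddHom.coe_mk, Sum.elim_inl]
    refine congrFun (congrArg _ (funext fun k => ?_)) j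
    simp [Pi.single_apply]
  · simp [rotEquiv, Pi.single_apply]

theorem elim_single (i : Fin (n + 1) ⊕ Fin (n + 1)) :
    Sum.elim (Pi.single i (1 : F)) (0 : Fin r → F) = Pi.single (Sum.inl i) 1 := by
  funext j
  rcases j with j | j <;> simp [Pi.single_apply]

theorem frameVec_left (i : Fin (n + 1)) : frameVec n r F i = Pi.single (.inl (.inl i)) 1 := by
  induction i using Fin.induction with
  | zero => simp [frameVec]
  | succ i ih =>
    rw [Fin.val_succ, ← Fin.val_castSucc, frameVec_succ, ih, rot_single, ← Symp.cox_smul, Symp.cox_eL,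
      elim_single]

theorem frameVec_right (i : Fin (n + 1)) : frameVec n r F (n + 1 + i) = Pi.single (.inl (.inr i)) 1 := by
  induction i using Fin.induction with
  | zero =>
    show frameVec n r F (n + 1) = _
    rw [show frameVec n r F (n + 1) = rotEquiv n r F
      (frameVec n r F (Fin.last n : ℕ)) by rw [Fin.val_last, frameVec_succ], frameVec_left, rot_single,
      ← Symp.cox_smul, Symp.cox_eL_last, elim_single]
  | succ i ih =>
    rw [Fin.val_succ, ← Fin.val_castSucc, ← Nat.add_assoc, frameVec_succ, ih, rot_single, ← Symp.cox_smul,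
      Symp.cox_eR, elim_single]

theorem frameVec_period (j : ℕ) : frameVec n r F (j + 2 * (n + 1)) = -frameVec n r F j := by
  induction j with
  | zero =>
    rw [Nat.zero_add, show 2 * (n + 1) = n + 1 + (Fin.last n : ℕ) + 1 by simp; ring, frameVec_succ,
      frameVec_right, rot_single]
    funext i
    rcases i with (i | i) | i <;> first
      | (induction i using Fin.cases <;> simp [frameVec, Symp.coxEquiv, Pi.single_apply, Fin.ext_iff] <;> omega)
      | simp [frameVec, Pi.single_apply]
  | succ j ih =>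
    rw [show j + 1 + 2 * (n + 1) = j + 2 * (n + 1) + 1 by ring, frameVec_succ, frameVec_succ, ih, map_neg]

/-- The anisotropic vector of the model, zero in even dimension. -/
def dVec (n r : ℕ) (F : Type*) [Field F] : Idx n r → F := Sum.elim 0 1

/-- The model frame. -/
noncomputable def modelFrame {σ : F ≃+* F} {η : F} (hη : η ≠ 0) (hr : r ≤ 1) :
    Frame (mform (n := n) (r := r) σ η) (n + 1) where
  z := frameVec n r F
  w := ofEquiv (rotEquiv n r F)
  d := dVec n r F
  one_le := by omega
  w_isom := rot_mem.1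
  w_z j := by rw [frameVec_succ, ap_ofEquiv]
  w_d := by
    rw [ap_ofEquiv]
    funext i
    rcases i with i | i
    · exact congrFun (map_zero Symp.coxEquiv) i
    · rfl
  period := frameVec_period
  orth e he hne := by
    rw [show frameVec n r F 0 = Pi.single (.inl (.inl 0)) 1 by simp [frameVec]]
    rcases Nat.lt_or_ge e (n + 1) with h | h
    · rw [show e = ((⟨e, h⟩ : Fin (n + 1)) : ℕ) from rfl, frameVec_left, (mform_single σ η _).1]
      simp
    · rw [show e = n + 1 + ((⟨e - (n + 1), by omega⟩ : Fin (n + 1)) : ℕ) by simp; omega, frameVec_right,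
        (mform_single σ η _).2.1]
      simp [Pi.single_apply, Fin.ext_iff]
      omega
  link := by
    rw [show n + 1 = n + 1 + ((0 : Fin (n + 1)) : ℕ) by simp, frameVec_right,
      show frameVec n r F 0 = Pi.single (.inl (.inl 0)) 1 by simp [frameVec], (mform_single σ η _).1]
    simp
  d_orth := by
    rw [show frameVec n r F 0 = Pi.single (.inl (.inl 0)) 1 by simp [frameVec], (mform_single σ η _).1]
    rfl
  d_cases := by
    rcases Nat.eq_zero_or_pos r with rfl | h
    · left
      funext i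
      rcases i with i | i
      · rfl
      · exact i.elim0
    · right
      obtain rfl : r = 1 := by omega
      simp [mform, dVec, hη]
  span v h hd := by
    funext i
    rcases i with (i | i) | i
    · have e := h (n + 1 + i) (by omega)
      rwa [frameVec_right, (mform_single σ η _).2.1, neg_eq_zero] at e
    · have e := h i (by omega)
      rwa [frameVec_left, (mform_single σ η _).1] at e
    · obtain rfl : r = 1 := by have := i.pos; omega
      rw [Subsingleton.elim i 0]
      simpa [mform, dVec, hη] using hd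

/-- Multiplication of the coordinates by units. -/
def diagEquiv {ι : Type} (c : ι → Fˣ) : (ι → F) ≃ₗ[F] (ι → F) where
  toFun v i := c i * v i
  invFun v i := ((c i)⁻¹ : Fˣ) * v i
  map_add' u v := funext fun i => mul_add _ _ _
  map_smul' a v := funext fun i => by simp only [Pi.smul_apply, smul_eq_mul, RingHom.id_apply]; ring
  left_inv v := funext fun i => by simp
  right_inv v := funext fun i => by simp

theorem det_diag {ι : Type} [Fintype ι] [DecidableEq ι] (c : ι → Fˣ) :
    ((ofEquiv (diagEquiv c) : GL ι F) : Matrix ι ι F).det = ∏ i, (c i : F) := by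
  rw [show ((ofEquiv (diagEquiv c) : GL ι F) : Matrix ι ι F) = Matrix.diagonal (fun i => (c i : F)) from
    Matrix.ext_of_mulVec_single fun j => by
      rw [← ap_def, ap_ofEquiv]
      funext i
      rw [Matrix.mulVec_diagonal]
      rfl, Matrix.det_diagonal]

/-- The diagonal of the torus elements. -/
def torC (σ : F ≃+* F) (a : Fin (n + 1) → Fˣ) (δ : Fˣ) : Idx n r → Fˣ :=
  Sum.elim (Sum.elim a fun i => (Units.map (σ : F →* F) (a i))⁻¹) fun _ => δ

/-- A torus element. -/
def tor (σ : F ≃+* F) (a : Fin (n + 1) → Fˣ) (δ : Fˣ) : GL (Idx n r) F := ofEquiv (diagEquiv (torC σ a δ))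

theorem tor_mem {σ : F ≃+* F} (hσ2 : ∀ a, σ (σ a) = a) {η : F} (a : Fin (n + 1) → Fˣ) (δ : Fˣ)
    (hδ : 0 < r → (δ : F) * σ δ = 1) (hdet : (∏ i, (a i : F) / σ (a i)) * (δ : F) ^ r = 1) :
    tor (r := r) σ a δ ∈ isom (mform σ η) ⊓ Cfsg.Geo.specialLinear (Idx n r) F := by
  refine ⟨fun u v => ?_, (mem_specialLinear_iff _).2 ?_⟩
  · show mform σ η (ap _ u) (ap _ v) = _
    simp only [tor, ap_ofEquiv, mform, diagEquiv, LinearEquiv.coe_mk, LinearMap.coe_mk, AddHom.coe_mk,
      torC, Sum.elim_inl, Sum.elim_inr, map_mul, Units.val_inv_eq_inv_val, Units.coe_map, map_inv₀]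
    congr 1
    · refine Finset.sum_congr rfl fun i _ => ?_
      have h1 : σ (a i : F) ≠ 0 := (map_ne_zero_iff _ σ.injective).2 (a i).ne_zero
      have h2 : (a i : F) ≠ 0 := (a i).ne_zero
      show ((σ (a i : F))⁻¹ * _) * (σ (a i) * _) - (a i * _) * ((σ (σ (a i : F)))⁻¹ * _) = _
      rw [hσ2]
      field_simp
    · refine Finset.sum_congr rfl fun i _ => ?_
      linear_combination η * u (.inr i) * σ (v (.inr i)) * hδ i.pos
  · rw [tor, det_diag, Fintype.prod_sum_type, Fintype.prod_sum_type]
    simp only [torC, Sum.elim_inl, Sum.elim_inr, Finset.prod_const, Finset.card_univ, Fintype.card_fin,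
      Units.val_inv_eq_inv_val, Units.coe_map, ← Finset.prod_mul_distrib]
    refine Eq.trans ?_ hdet
    congr 1
    exact Finset.prod_congr rfl fun i _ => (div_eq_mul_inv _ _).symm

theorem tor_left {σ : F ≃+* F} (a : Fin (n + 1) → Fˣ) (δ : Fˣ) (i : Fin (n + 1)) :
    ap (tor (r := r) σ a δ) (frameVec n r F i) = (a i : F) • frameVec n r F i := by
  rw [frameVec_left, tor, ap_ofEquiv]
  funext j
  by_cases h : j = .inl (.inl i) <;> simp [diagEquiv, torC, h]

theorem tor_right {σ : F ≃+* F} (a : Fin (n + 1) → Fˣ) (δ : Fˣ) (i : Fin (n + 1)) :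
    ap (tor (r := r) σ a δ) (frameVec n r F (n + 1 + i)) = (σ (a i : F))⁻¹ • frameVec n r F (n + 1 + i) := by
  rw [frameVec_right, tor, ap_ofEquiv]
  funext j
  by_cases h : j = .inl (.inr i)
  · subst h
    simp [diagEquiv, torC]
  · simp [diagEquiv, h]

theorem tor_d {σ : F ≃+* F} (a : Fin (n + 1) → Fˣ) (δ : Fˣ) :
    ap (tor (r := r) σ a δ) (dVec n r F) = (δ : F) • dVec n r F := by
  rw [tor, ap_ofEquiv]
  funext j
  rcases j with j | j <;> simp [diagEquiv, torC, dVec]

section Frame

variable {ι : Type} [Fintype ι] [DecidableEq ι] {σ : F ≃+* F} {f : (ι → F) → (ι → F) → F}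

/-- An isometry is determined by its values on the frame when it is diagonal there. -/
theorem Frame.ext_of_frame (hf : IsSkewForm σ f) {m : ℕ} (P : Frame f m) {A B : GL ι F} (hA : A ∈ isom f)
    (hB : B ∈ isom f) (hz : ∀ j, ap A (P.z j) = ap B (P.z j))
    (hd : ap A P.d = ap B P.d) (hAz : ∀ j, ∃ a : F, a ≠ 0 ∧ ap A (P.z j) = a • P.z j)
    (hAd : ∃ a : F, a ≠ 0 ∧ ap A P.d = a • P.d) : A = B := by
  apply gl_ext
  intro v
  have key : ∀ y, ap A y = ap B y → ∀ a : F, a ≠ 0 → ap A y = a • y → f (ap A v - ap B v) y = 0 := by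
    intro y hy a ha hAy
    have h : f (ap A v - ap B v) (ap A y) = 0 := by
      rw [Unitary.sub_left hf, mem_isom_iff.mp hA, hy, mem_isom_iff.mp hB, sub_self]
    rw [hAy, Unitary.smul_right hf] at h
    exact (mul_eq_zero.1 h).resolve_left ((map_ne_zero_iff _ σ.injective).2 ha)
  refine sub_eq_zero.1 (P.span _ (fun j _ => ?_) ?_)
  · obtain ⟨a, ha, hAy⟩ := hAz j
    exact key _ (hz j) a ha hAy
  · obtain ⟨a, ha, hAy⟩ := hAd
    exact key _ hd a ha hAy

end Frame

variable [Fintype F] {q : ℕ} {σ : F ≃+* F}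

/-- Facts about a generator of the multiplicative group. -/
theorem prim_facts (hF : Fintype.card F = q ^ 2) {k : Fˣ} (hk : orderOf k = q ^ 2 - 1) (j : ℕ) (hj : 0 < j)
    (hj2 : j < q ^ 2 - 1) : (k : F) ^ j ≠ 1 := by
  intro h
  have h' : k ^ j = 1 := Units.ext (by simpa using h)
  exact absurd (Nat.le_of_dvd hj (orderOf_dvd_of_pow_eq_one h')) (by omega)

theorem exists_prim_unit (hF : Fintype.card F = q ^ 2) : ∃ k : Fˣ, orderOf k = q ^ 2 - 1 := by
  obtain ⟨k, hk⟩ := IsCyclic.exists_ofOrder_eq_natCard (α := Fˣ)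
  exact ⟨k, by rw [hk, Nat.card_units, Nat.card_eq_fintype_card, hF]⟩

/-- Two elements of the model special isometry group with every transvection in the subgroup they generate. -/
theorem exists_pair_model (hF : Fintype.card F = q ^ 2) (hσq : ∀ x, σ x = x ^ q)
    (hσ2 : ∀ a, σ (σ a) = a) {η : F} (hη : η ≠ 0)
    (hf : IsSkewForm σ (mform (n := n) (r := r) σ η)) (hr : r ≤ 1) (hdim : 3 ≤ 2 * (n + 1) + r)
    (hq3 : n = 0 → 3 ≤ q) :
    ∃ A B : GL (Idx n r) F, A ∈ isom (mform σ η) ⊓ Cfsg.Geo.specialLinear (Idx n r) F ∧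
      B ∈ isom (mform σ η) ⊓ Cfsg.Geo.specialLinear (Idx n r) F ∧
      HasT hf (Subgroup.closure {A, B}) := by
  classical
  have hq2 : 2 ≤ q := by
    have := Fintype.one_lt_card (α := F)
    rw [hF] at this
    exact (Nat.one_lt_pow_iff two_ne_zero).1 this
  have hq2' : q + q ≤ q ^ 2 := by rw [sq]; calc q + q = 2 * q := by ring
                                    _ ≤ q * q := Nat.mul_le_mul_right q hq2
  obtain ⟨k, hk⟩ := exists_prim_unit hF
  have hk' := prim_facts hF hk
  have hk0 : (k : F) ≠ 0 := k.ne_zero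
  have hσk : σ (k : F) ≠ 0 := (map_ne_zero_iff _ σ.injective).2 hk0
  have hσne : ∀ {a : F}, a ≠ 1 → σ a ≠ 1 := fun ha h => ha (σ.injective (h.trans (map_one σ).symm))
  have hkq : σ (k : F) ≠ k := fun h => by
    rw [hσq] at h
    refine hk' (q - 1) (by omega) (by omega) (mul_right_cancel₀ hk0 ?_)
    rw [one_mul, ← pow_succ, Nat.sub_add_cancel (by omega), h]
  set f := mform (n := n) (r := r) σ η
  let P : Frame f (n + 1) := modelFrame (n := n) (r := r) (σ := σ) hη hr
  set W := ofEquiv (rotEquiv n r F)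
  have hW : W ∈ isom f ⊓ Cfsg.Geo.specialLinear (Idx n r) F := rot_mem
  -- the torus element
  set a : Fin (n + 1) → Fˣ := fun i => if i.val = 0 then k else if i.val = 1 then k⁻¹ else 1 with ha
  set δ : Fˣ := if n = 0 then Units.map (σ : F →* F) k * k⁻¹ else 1 with hδdef
  have hδ : 0 < r → (δ : F) * σ δ = 1 := by
    intro _
    rw [hδdef]
    split_ifs
    · simp only [Units.val_mul, Units.coe_map, Units.val_inv_eq_inv_val, map_mul, map_inv₀]
      show σ (k : F) * (k : F)⁻¹ * (σ (σ (k : F)) * (σ (k : F))⁻¹) = 1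
      rw [hσ2]
      field_simp
    · simp
  have hdet : (∏ i, (a i : F) / σ (a i)) * (δ : F) ^ r = 1 := by
    rcases Nat.eq_zero_or_pos n with rfl | hn
    · obtain rfl : r = 1 := by omega
      rw [Fin.prod_univ_one, hδdef, if_pos rfl]
      simp only [ha, Fin.val_zero, if_true, Units.val_mul, Units.coe_map, Units.val_inv_eq_inv_val, pow_one]
      show (k : F) / σ k * (σ (k : F) * (k : F)⁻¹) = 1
      field_simp
    · obtain ⟨l, rfl⟩ : ∃ l, n = l + 1 := ⟨n - 1, by omega⟩
      rw [hδdef, if_neg (by omega), Units.val_one, one_pow, mul_one, Fin.prod_univ_succ, Fin.prod_univ_succ]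
      rw [Finset.prod_eq_one (fun i _ => by simp [ha]), mul_one]
      simp only [ha, Fin.val_zero, Fin.val_succ, zero_add, if_true, if_neg one_ne_zero,
        Units.val_inv_eq_inv_val, map_inv₀]
      field_simp
  set H := tor (r := r) σ a δ
  have hH : H ∈ isom f ⊓ Cfsg.Geo.specialLinear (Idx n r) F := tor_mem hσ2 a δ hδ hdet
  set H' := W * H * W⁻¹ with hH'def
  have hH' : H' ∈ isom f := mul_mem (mul_mem hW.1 hH.1) (inv_mem hW.1)
  -- eigenvalues
  have hPz : ∀ j, P.z j = frameVec n r F j := fun _ => rfl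
  have heig : ∀ j, ∃ b : F, b ≠ 0 ∧ ap H (P.z j) = b • P.z j := by
    intro j
    induction j using Nat.strong_induction_on with
    | _ j ih =>
      rcases Nat.lt_or_ge j (2 * (n + 1)) with hj | hj
      · rcases Nat.lt_or_ge j (n + 1) with h | h
        · refine ⟨a ⟨j, h⟩, (a _).ne_zero, ?_⟩
          rw [hPz]
          exact tor_left (r := r) (σ := σ) a δ ⟨j, h⟩
        · refine ⟨(σ (a ⟨j - (n + 1), by omega⟩ : F))⁻¹,
            inv_ne_zero ((map_ne_zero_iff _ σ.injective).2 (a _).ne_zero), ?_⟩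
          have := tor_right (r := r) (σ := σ) a δ ⟨j - (n + 1), by omega⟩
          simp only [Nat.add_sub_cancel' h] at this
          rw [hPz]
          exact this
      · obtain ⟨b, hb, e⟩ := ih (j - 2 * (n + 1)) (by omega)
        refine ⟨b, hb, ?_⟩
        rw [show j = j - 2 * (n + 1) + 2 * (n + 1) by omega, P.period, ← neg_one_smul F, ap_smul, e,
          smul_comm]
  have heig' : ∀ (j : ℕ) (b : F), ap H (P.z j) = b • P.z j → ap H' (P.z (j + 1)) = b • P.z (j + 1) := by
    intro j b e
    rw [← P.w_z j]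
    show ap (W * H * W⁻¹) (ap W (P.z j)) = _
    rw [ap_mul, ap_inv_ap, ap_mul, e, ap_smul]
    rfl
  have heig'' : ∀ j, ∃ b : F, b ≠ 0 ∧ ap H' (P.z j) = b • P.z j := by
    intro j
    obtain ⟨b, hb, e⟩ := heig (j + (2 * n + 1))
    refine ⟨b, hb, ?_⟩
    have := heig' _ _ e
    rw [show j + (2 * n + 1) + 1 = j + 2 * (n + 1) by ring, P.period, ← neg_one_smul F, ap_smul,
      smul_comm] at this
    exact smul_right_injective _ (neg_ne_zero.2 one_ne_zero) this
  have hWd : ap W P.d = P.d := P.w_d
  have hWd' : ap W⁻¹ P.d = P.d := by conv_lhs => rw [← hWd, ap_inv_ap]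
  have hHd : ap H P.d = (δ : F) • P.d := tor_d a δ
  have hH'd : ap H' P.d = (δ : F) • P.d := by
    show ap (W * H * W⁻¹) P.d = _
    rw [ap_mul, hWd', ap_mul, hHd, ap_smul, hWd]
  have hcomm : H * H' = H' * H := by
    refine P.ext_of_frame hf (mul_mem hH.1 hH') (mul_mem hH' hH.1) (fun j => ?_) ?_ (fun j => ?_) ?_
    · obtain ⟨b, -, e⟩ := heig j
      obtain ⟨b', -, e'⟩ := heig'' j
      rw [ap_mul H H', ap_mul H' H, e', e, ap_smul, ap_smul, e, e', smul_comm]
    · rw [ap_mul H H', ap_mul H' H, hH'd, hHd, ap_smul, ap_smul, hHd, hH'd]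
    · obtain ⟨b, hb, e⟩ := heig j
      obtain ⟨b', hb', e'⟩ := heig'' j
      exact ⟨b' * b, mul_ne_zero hb' hb, by rw [ap_mul H H', e', ap_smul, e, smul_smul]⟩
    · exact ⟨(δ : F) * δ, mul_ne_zero δ.ne_zero δ.ne_zero, by rw [ap_mul H H', hH'd, ap_smul, hHd, smul_smul]⟩
  have ha0 : a 0 = k := if_pos rfl
  have ha1 : ∀ h : 1 < n + 1, a ⟨1, h⟩ = k⁻¹ := fun _ => (if_neg one_ne_zero).trans (if_pos rfl)
  have hz0 : ap H (P.z 0) = (k : F) • P.z 0 := by
    rw [← ha0]
    exact tor_left (r := r) (σ := σ) a δ 0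
  have hz1 : 1 ≤ n → ap H (P.z 1) = ((k⁻¹ : Fˣ) : F) • P.z 1 := fun hn => by
    rw [← ha1 (by omega)]
    exact tor_left (r := r) (σ := σ) a δ ⟨1, by omega⟩
  rcases Nat.eq_zero_or_pos r with hr0 | hrpos
  · -- even dimension
    have hn : 1 ≤ n := by omega
    have hd0 : P.d = 0 := by
      subst hr0
      funext i
      rcases i with i | i
      · rfl
      · exact i.elim0
    set z := P.z (n + 2)
    have hzz : f (P.z 0) (P.z 0) = 0 := P.iso hf 0
    have hzz' : f z z = 0 := P.iso hf _
    have hz0z : f z (P.z 0) = 0 :=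
      (P.orth_of_le hf (Nat.zero_le _) (by rw [Nat.sub_zero, Nat.mod_eq_of_lt (by omega)]; omega)).2
    have hv : ∀ l : F, f (l • z) (P.z 0) = 0 := fun l => by rw [hf.smul_left, hz0z, mul_zero]
    have hiso : ∀ l : F, (0 : F) - σ 0 = f (l • z) (l • z) := fun l => by
      rw [hf.smul_left, Unitary.smul_right hf, hzz', mul_zero, mul_zero, map_zero, sub_zero]
    set X := E hf (P.z 0) ((1 : F) • z) 0 hzz (hv 1)
    have hXI : X ∈ isom f ⊓ Cfsg.Geo.specialLinear (Idx n r) F := E_mem hf (hiso 1)
    refine ⟨H, X * W, hH, mul_mem hXI hW, ?_⟩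
    set M := Subgroup.closure {H, X * W}
    have hHM : H ∈ M := Subgroup.subset_closure (Or.inl rfl)
    have hb : X * W ∈ M := Subgroup.subset_closure (Or.inr rfl)
    let R : F → GL (Idx n r) F → Prop := fun l g => g = E hf (P.z 0) (l • z) 0 hzz (hv l)
    have hmul : ∀ l l' g g', R l g → R l' g' → R (l + l') (g * g') := fun l l' g g' e e' => by
      show g * g' = _
      rw [e, e', E_mul_E hf (by rw [← add_smul]; exact hv _)]
      refine E_congr hf rfl (add_smul l l' z).symm ?_
      rw [hf.smul_left, Unitary.smul_right hf, hzz', mul_zero, mul_zero, add_zero, add_zero]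
    have hone : R 0 1 := by
      show (1 : GL (Idx n r) F) = _
      rw [E_congr hf (hu' := hzz) (hvu' := Unitary.zero_left hf _) rfl (zero_smul F z) rfl, E_zero hf]
    have hinv : ∀ l g, R l g → R (-l) g⁻¹ := fun l g e => by
      refine inv_eq_of_mul_eq_one_right ?_
      have h := hmul l (-l) g _ e rfl
      rw [add_neg_cancel] at h
      exact h.trans hone.symm
    have hconj : ∀ (K : GL (Idx n r) F), K ∈ isom f → ∀ s t : F, ap K (P.z 0) = s • P.z 0 → ap K z = t • z →
        ∀ l g, R l g → R (σ s * t * l) (K * g * K⁻¹) := by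
      intro K hK s t hs ht l g e
      show K * g * K⁻¹ = _
      have h1 : f (s • P.z 0) (s • P.z 0) = 0 := isotropic_smul hf hzz s
      have h2 : f ((t * l) • z) (s • P.z 0) = 0 := by rw [Unitary.smul_right hf, hv, mul_zero]
      rw [e, conj_E hf hK, E_congr hf (hu' := h1) (hvu' := h2) hs
        (show ap K (l • z) = (t * l) • z by rw [ap_smul, ht, smul_smul, mul_comm]) rfl,
        E_smul_left hf s 0 hzz h1 h2 (by rw [smul_smul]; exact hv _)]
      refine E_congr hf rfl ?_ (mul_zero _)
      rw [smul_smul, mul_assoc]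
    have hzm : ap H (P.z (n + 1)) = (σ (k : F))⁻¹ • P.z (n + 1) := by
      rw [← ha0]
      exact tor_right (r := r) (σ := σ) a δ 0
    have hzm1 : ap H z = σ (k : F) • z := by
      rw [show σ (k : F) = (σ (a ⟨1, by omega⟩ : F))⁻¹ by
        rw [ha1, Units.val_inv_eq_inv_val, map_inv₀, inv_inv]]
      exact tor_right (r := r) (σ := σ) a δ ⟨1, by omega⟩
    have hH'z : ap H' z = (σ (k : F))⁻¹ • z := heig' _ _ hzm
    obtain ⟨s', hs', hs'2⟩ : ∃ s', ap H' (P.z 0) = s' • P.z 0 ∧ (s' = 1 ∨ s' = σ (k : F)) := by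
      have hlast : ∃ s', ap H (P.z (2 * n + 1)) = s' • P.z (2 * n + 1) ∧ (s' = 1 ∨ s' = σ (k : F)) := by
        have := tor_right (r := r) (σ := σ) a δ (Fin.last n)
        rw [show n + 1 + (Fin.last n : ℕ) = 2 * n + 1 by simp; ring] at this
        refine ⟨_, this, ?_⟩
        simp only [ha, Fin.val_last]
        rw [if_neg (by omega)]
        split_ifs
        · right; simp
        · left; simp
      obtain ⟨s', e, h⟩ := hlast
      refine ⟨s', ?_, h⟩
      have := heig' _ _ e
      rw [show 2 * n + 1 + 1 = 0 + 2 * (n + 1) by ring, P.period, ← neg_one_smul F, ap_smul, smul_comm] at this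
      exact smul_right_injective _ (neg_ne_zero.2 one_ne_zero) this
    have hl : ∀ j, 0 < j → j < q → (σ (k : F) * σ k) ^ j ≠ 1 := fun j hj hjq h => by
      rw [← map_mul, ← map_pow, ← sq, ← pow_mul] at h
      exact hk' (2 * j) (by omega) (by omega) (σ.injective (h.trans (map_one σ).symm))
    have hl' : σ s' * (σ (k : F))⁻¹ ≠ 1 := by
      rcases hs'2 with rfl | rfl
      · rw [map_one, one_mul, ← map_inv₀]
        refine hσne fun h => hk' 1 one_pos (by omega) ?_
        rw [pow_one, ← inv_inv (k : F), h, inv_one]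
      · rw [hσ2, ← div_eq_mul_inv]
        exact fun h => hkq ((div_eq_one_iff_eq hσk).1 h).symm
    have hfull := coef_full hF M R hone hmul hinv (h := H) (h' := H') (x := X) (N := W)
      (hconj H hH.1 _ _ hz0 hzm1) (hconj H' hH' _ _ hs' hH'z) rfl hH'def hcomm
      (mul_ne_zero hσk hσk) hl hl' hHM hb
    have hP' : PMem hf M (P.z 0) z := fun t _ _ => by
      obtain ⟨g, hg, e⟩ := hfull t
      rw [show R t g = (g = _) from rfl] at e
      rw [e] at hg
      exact hg
    have hWM : W ∈ M := (M.mul_mem_cancel_left (show X ∈ M from hP' 1 hzz (hv 1))).1 hb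
    exact P.hasT_of_short hf hWM (by omega) hd0 hP'
  · -- odd dimension
    obtain rfl : r = 1 := by omega
    have hdd : f P.d P.d ≠ 0 := by
      show mform σ η (dVec n 1 F) (dVec n 1 F) ≠ 0
      simp [mform, dVec, hη]
    set s : ℕ := if n = 0 then 0 else 1 with hs
    have hs2 : s < 2 * (n + 1) := by rw [hs]; split_ifs <;> omega
    have hzz : f (P.z s) (P.z s) = 0 := P.iso hf s
    have hv : ∀ l : F, f (l • P.d) (P.z s) = 0 := fun l => by rw [hf.smul_left, P.d_z, mul_zero]
    obtain ⟨c₁, hc₁⟩ := exists_sub_eq hf (skew_self hf ((1 : F) • P.d))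
    set X := E hf (P.z s) ((1 : F) • P.d) c₁ hzz (hv 1)
    have hXI : X ∈ isom f ⊓ Cfsg.Geo.specialLinear (Idx n 1) F := E_mem hf hc₁
    refine ⟨H, X * W, hH, mul_mem hXI hW, ?_⟩
    set M := Subgroup.closure {H, X * W}
    have hHM : H ∈ M := Subgroup.subset_closure (Or.inl rfl)
    have hb : X * W ∈ M := Subgroup.subset_closure (Or.inr rfl)
    let R : F → GL (Idx n 1) F → Prop := fun l g =>
      ∃ c, c - σ c = f (l • P.d) (l • P.d) ∧ g = E hf (P.z s) (l • P.d) c hzz (hv l)
    have hmul : ∀ l l' g g', R l g → R l' g' → R (l + l') (g * g') := by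
      rintro l l' _ _ ⟨c, hc, rfl⟩ ⟨c', hc', rfl⟩
      refine ⟨c + c' + f (l' • P.d) (l • P.d), ?_, ?_⟩
      · rw [add_smul, hf.add_left, Unitary.add_right hf, Unitary.add_right hf, hf.skew (l • P.d) (l' • P.d),
          map_add, map_add]
        linear_combination hc + hc'
      · rw [E_mul_E hf (by rw [← add_smul]; exact hv _)]
        exact E_congr hf rfl (add_smul l l' P.d).symm rfl
    have hone : R 0 1 := by
      refine ⟨0, by rw [zero_smul, Unitary.zero_left hf, map_zero, sub_zero], ?_⟩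
      rw [E_congr hf (hu' := hzz) (hvu' := Unitary.zero_left hf _) rfl (zero_smul F P.d) rfl, E_zero hf]
    have hinv : ∀ l g, R l g → R (-l) g⁻¹ := by
      rintro l _ ⟨c, hc, rfl⟩
      refine ⟨f (l • P.d) (l • P.d) - c, ?_, inv_eq_of_mul_eq_one_right ?_⟩
      · rw [map_sub, skew_self hf, neg_smul, Unitary.neg_left hf, Unitary.neg_right hf, neg_neg]
        linear_combination -hc
      · rw [E_mul_E hf (by rw [← add_smul]; exact hv _), E_congr hf (v' := 0) (c' := 0) (hu' := hzz)
          (hvu' := Unitary.zero_left hf _) rfl (by rw [← add_smul, add_neg_cancel, zero_smul]) (by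
            rw [neg_smul, Unitary.neg_left hf]; ring), E_zero hf]
    have hconj : ∀ (K : GL (Idx n 1) F), K ∈ isom f → ∀ b t : F, ap K (P.z s) = b • P.z s →
        ap K P.d = t • P.d → ∀ l g, R l g → R (σ b * t * l) (K * g * K⁻¹) := by
      rintro K hK b t hb ht l _ ⟨c, hc, rfl⟩
      have h1 : f (b • P.z s) (b • P.z s) = 0 := isotropic_smul hf hzz b
      have h2 : f ((t * l) • P.d) (b • P.z s) = 0 := by rw [Unitary.smul_right hf, hv, mul_zero]
      have hd' : f ((t * l) • P.d) ((t * l) • P.d) = f (l • P.d) (l • P.d) := by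
        rw [← smul_smul, show t • (l • P.d) = ap K (l • P.d) by rw [ap_smul, ht, smul_comm],
          mem_isom_iff.mp hK]
      refine ⟨b * σ b * c, ?_, ?_⟩
      · rw [mul_assoc (σ b), ← smul_smul (σ b), hf.smul_left, Unitary.smul_right hf (σ b), hf.involutive, hd',
          map_mul, map_mul, hf.involutive, ← hc]
        ring
      · rw [conj_E hf hK, E_congr hf (hu' := h1) (hvu' := h2) hb
          (show ap K (l • P.d) = (t * l) • P.d by rw [ap_smul, ht, smul_smul, mul_comm]) rfl,
          E_smul_left hf b c hzz h1 h2 (by rw [smul_smul]; exact hv _)]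
        exact E_congr hf rfl (by rw [smul_smul, mul_assoc]) rfl
    -- the multipliers
    obtain ⟨b, b', hb1, hb'1, hl, hl'⟩ : ∃ b b' : F, ap H (P.z s) = b • P.z s ∧ ap H' (P.z s) = b' • P.z s ∧
        (σ b * δ ≠ 0 ∧ ∀ j, 0 < j → j < q → (σ b * δ) ^ j ≠ 1) ∧ σ b' * δ ≠ 1 := by
      rcases Nat.eq_zero_or_pos n with hn | hn
      · have hs0 : s = 0 := by rw [hs, if_pos hn]
        have hδv : (δ : F) = σ (k : F) / k := by
          rw [hδdef, if_pos hn]
          simp only [Units.val_mul, Units.coe_map, Units.val_inv_eq_inv_val]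
          rw [div_eq_mul_inv]; rfl
        have h3 := hq3 hn
        refine ⟨k, (σ (k : F))⁻¹, by rw [hs0]; exact hz0, ?_,
          ⟨mul_ne_zero hσk δ.ne_zero, fun j hj hjq h => ?_⟩, fun h => ?_⟩
        · have e : ap H (P.z (n + 1)) = (σ (k : F))⁻¹ • P.z (n + 1) := by
            rw [← ha0]
            exact tor_right (r := 1) (σ := σ) a δ 0
          have := heig' _ _ e
          subst hn
          rw [show 0 + 1 + 1 = 0 + 2 * (0 + 1) by rfl] at this
          rw [P.period, ← neg_one_smul F, ap_smul, smul_comm] at this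
          rw [hs0]
          exact smul_right_injective _ (neg_ne_zero.2 one_ne_zero) this
        · rw [hδv, hσq, ← mul_div_assoc, ← pow_add, div_pow, div_eq_one_iff_eq (pow_ne_zero _ hk0),
            ← pow_mul] at h
          have h' : (k : F) ^ ((2 * q - 1) * j) = 1 := by
            refine mul_right_cancel₀ (pow_ne_zero j hk0) ?_
            rw [one_mul, ← pow_add]
            conv_rhs => rw [← h]
            congr 1
            obtain ⟨p, rfl⟩ : ∃ p, q = p + 1 := ⟨q - 1, by omega⟩
            rw [show 2 * (p + 1) - 1 = 2 * p + 1 by omega]; ring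
          have hd : orderOf k ∣ (2 * q - 1) * j :=
            orderOf_dvd_of_pow_eq_one (Units.ext (by rw [Units.val_pow_eq_pow_val, h', Units.val_one]))
          rw [hk] at hd
          have hd3 : q ^ 2 - 1 ∣ 3 * j := by
            have h4 : (2 * q + 1) * ((2 * q - 1) * j) = (q ^ 2 - 1) * (4 * j) + 3 * j := by
              have h1 : 1 ≤ 2 * q := by omega
              have h2 : 1 ≤ q ^ 2 := by omega
              zify [h1, h2]; ring
            exact (Nat.dvd_add_right (Dvd.intro _ rfl)).1 (h4 ▸ hd.mul_left _)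
          have h5 := Nat.le_of_dvd (by omega) hd3
          have h6 : 3 * q ≤ q ^ 2 := by rw [sq]; exact Nat.mul_le_mul_right q h3
          omega
        · rw [hδv, map_inv₀, hσ2, hσq] at h
          field_simp at h
          refine hk' (q - 2) (by omega) (by omega) (mul_right_cancel₀ (pow_ne_zero 2 hk0) ?_)
          rw [one_mul, ← pow_add, Nat.sub_add_cancel (by omega), sq]
          linear_combination h
      · have hs1 : s = 1 := by rw [hs, if_neg (by omega)]
        have hδv : (δ : F) = 1 := by rw [hδdef, if_neg (by omega), Units.val_one]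
        refine ⟨((k⁻¹ : Fˣ) : F), k, by rw [hs1]; exact hz1 hn, by rw [hs1]; exact heig' 0 _ hz0, ?_, ?_⟩
        · rw [hδv, mul_one]
          refine ⟨(map_ne_zero_iff _ σ.injective).2 (k⁻¹).ne_zero, fun j hj hjq h => ?_⟩
          rw [← map_pow, Units.val_inv_eq_inv_val, inv_pow] at h
          exact hk' j hj (by omega) (inv_eq_one.1 (σ.injective (h.trans (map_one σ).symm)))
        · rw [hδv, mul_one]
          exact hσne fun h => hk' 1 one_pos (by omega) (by rw [pow_one, h])
    have hfull := coef_full hF M R hone hmul hinv (h := H) (h' := H') (x := X) (N := W)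
      (hconj H hH.1 _ _ hb1 hHd) (hconj H' hH' _ _ hb'1 hH'd) ⟨c₁, hc₁, rfl⟩ hH'def hcomm hl.1 hl.2 hl' hHM hb
    have hD : DMem hf M (P.z s) P.d := fun t => by
      obtain ⟨g, hg, c, hc, rfl⟩ := hfull t
      exact ⟨c, hc, fun _ _ => hg⟩
    have hX : X ∈ M := E_mem_of_DMem hf hD (hD.long hf (P.d_z s) hdd) hzz (hv 1) hc₁
    exact P.hasT_of_dmem hf ((M.mul_mem_cancel_left hX).1 hb) hdd hs2 hD

end CfsgLib.KnownSimple.TwoGen.Unitary
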