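import Cfsg.Agent.Lib.Geometric.Unitary

/-!
Eichler elements along an orbit of isotropic vectors: conjugation, commutators and the root group trick
used for generating unitary groups by two elements.
-/

set_option autoImplicit false
set_option linter.unusedSectionVars false

namespace CfsgLib.KnownSimple.TwoGen.Unitary

open CfsgLib.Geometric CfsgLib.Geometric.Unitary

/-- An additive subgroup closed under a multiplier of large order is trivial or everything. -/
theorem eq_top_of_mul_closed {F : Type*} [Field F] [Fintype F] {q : ℕ} (hF : Fintype.card F = q ^ 2)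
    {l : F} (hl : l ≠ 0) (hord : ∀ j, 0 < j → j < q → l ^ j ≠ 1) (A : AddSubgroup F)
    (hA : ∀ a ∈ A, l * a ∈ A) {a₀ : F} (ha : a₀ ∈ A) (ha0 : a₀ ≠ 0) : A = ⊤ := by
  classical
  set R₀ : Subring F :=
    { carrier := {x | ∀ a ∈ A, x * a ∈ A}
      one_mem' := fun a ha => by rwa [one_mul]
      mul_mem' := fun {x y} hx hy a ha => by rw [mul_assoc]; exact hx _ (hy a ha)
      zero_mem' := fun a _ => by rw [zero_mul]; exact A.zero_mem
      add_mem' := fun {x y} hx hy a ha => by rw [add_mul]; exact A.add_mem (hx a ha) (hy a ha)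
      neg_mem' := fun {x} hx a ha => by rw [neg_mul]; exact A.neg_mem (hx a ha) } with hR
  let R : Subfield F :=
    { R₀ with
      inv_mem' := fun x hx => by
        rcases eq_or_ne x 0 with rfl | h0
        · rwa [inv_zero]
        have e : x ^ (Fintype.card F - 2) * x = 1 := by
          rw [← pow_succ, show Fintype.card F - 2 + 1 = Fintype.card F - 1 by
            have := Fintype.one_lt_card (α := F); omega]
          exact FiniteField.pow_card_sub_one_eq_one x h0
        rw [← eq_inv_of_mul_eq_one_left e]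
        exact R₀.pow_mem hx _ }
  have hlR : l ∈ R := hA
  by_cases htop : R = ⊤
  · refine eq_top_iff.2 fun x _ => ?_
    have hx : x / a₀ ∈ R := htop ▸ Subfield.mem_top _
    have := (show ∀ a ∈ A, x / a₀ * a ∈ A from hx) a₀ ha
    rwa [div_mul_cancel₀ _ ha0] at this
  exfalso
  obtain ⟨d, hd⟩ : ∃ d, Fintype.card F = Fintype.card R ^ d := ⟨_, Module.card_eq_pow_finrank⟩
  have h1 : 1 < Fintype.card R := Fintype.one_lt_card
  have hlt : Fintype.card R < Fintype.card F := Fintype.card_lt_of_injective_not_surjective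
    (fun x : R => (x : F)) Subtype.val_injective fun hsurj => htop (eq_top_iff.2 fun x _ => by
      obtain ⟨y, rfl⟩ := hsurj x
      exact y.2)
  have hd2 : 2 ≤ d := by
    rcases d with _ | _ | d
    · have := Fintype.one_lt_card (α := F)
      rw [hd] at this
      simp at this
    · rw [hd, pow_one] at hlt; omega
    · omega
  have hle : Fintype.card R ≤ q := Nat.pow_le_pow_iff_left two_ne_zero |>.1
    ((Nat.pow_le_pow_right (by omega) hd2).trans (by rw [← hd, hF]))
  have hl0 : (⟨l, hlR⟩ : R) ≠ 0 := fun h => hl (congrArg Subtype.val h)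
  refine hord (Fintype.card R - 1) (by omega) (by omega) ?_
  simpa using congrArg Subtype.val (FiniteField.pow_card_sub_one_eq_one _ hl0)

/-- The root group trick: a torus element and its conjugate under the word spread one root element over
all coefficients. -/
theorem coef_full {F G : Type*} [Field F] [Fintype F] [Group G] {q : ℕ} (hF : Fintype.card F = q ^ 2)
    (M : Subgroup G) (R : F → G → Prop) (hone : R 0 1)
    (hmul : ∀ a b g g', R a g → R b g' → R (a + b) (g * g'))
    (hinv : ∀ a g, R a g → R (-a) g⁻¹) {h h' x N : G} {l l' : F}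
    (hc : ∀ a g, R a g → R (l * a) (h * g * h⁻¹)) (hc' : ∀ a g, R a g → R (l' * a) (h' * g * h'⁻¹))
    (hx : R 1 x) (hh' : h' = N * h * N⁻¹) (hcomm : h * h' = h' * h) (hl0 : l ≠ 0)
    (hord : ∀ j, 0 < j → j < q → l ^ j ≠ 1) (hl1 : l' ≠ 1) (hh : h ∈ M) (hb : x * N ∈ M) :
    ∀ a : F, ∃ g ∈ M, R a g := by
  let A : AddSubgroup F :=
    { carrier := {a | ∃ g ∈ M, R a g}
      zero_mem' := ⟨1, M.one_mem, hone⟩
      add_mem' := fun {a b} ⟨g, hg, hag⟩ ⟨g', hg', hbg⟩ => ⟨g * g', M.mul_mem hg hg', hmul a b g g' hag hbg⟩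
      neg_mem' := fun {a} ⟨g, hg, hag⟩ => ⟨g⁻¹, M.inv_mem hg, hinv a g hag⟩ }
  have hX : R (1 + l' * -1) (x * (h' * x⁻¹ * h'⁻¹)) := hmul _ _ _ _ hx (hc' _ _ (hinv _ _ hx))
  set X := x * (h' * x⁻¹ * h'⁻¹)
  have hy : X * h' ∈ M := by
    have e : X * h' = x * N * h * (x * N)⁻¹ := by simp only [X, hh']; group
    rw [e]
    exact M.mul_mem (M.mul_mem hb hh) (M.inv_mem hb)
  have hz : h * (X * h') * h⁻¹ * (X * h')⁻¹ = h * X * h⁻¹ * X⁻¹ := by
    calc h * (X * h') * h⁻¹ * (X * h')⁻¹ = h * X * h⁻¹ * (h * h' * h⁻¹ * h'⁻¹) * X⁻¹ := by group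
      _ = _ := by rw [hcomm, mul_inv_cancel_right, mul_inv_cancel, mul_one]
  have hmem : (l - 1) * (1 - l') ∈ A := by
    refine ⟨h * (X * h') * h⁻¹ * (X * h')⁻¹,
      M.mul_mem (M.mul_mem (M.mul_mem hh hy) (M.inv_mem hh)) (M.inv_mem hy), ?_⟩
    rw [hz]
    convert hmul _ _ _ _ (hc _ _ hX) (hinv _ _ hX) using 1
    ring
  have hl' : l ≠ 1 := by
    rintro rfl
    have hq : 2 ≤ q := by
      have := Fintype.one_lt_card (α := F)
      rw [hF] at this
      exact (Nat.one_lt_pow_iff two_ne_zero).1 this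
    exact hord 1 one_pos (by omega) (pow_one 1)
  have htop : A = ⊤ := eq_top_of_mul_closed hF hl0 hord A
    (fun a ⟨g, hg, hag⟩ => ⟨h * g * h⁻¹, M.mul_mem (M.mul_mem hh hg) (M.inv_mem hh), hc a g hag⟩) hmem
    (mul_ne_zero (sub_ne_zero.2 hl') (sub_ne_zero.2 (Ne.symm hl1)))
  exact fun a => htop.ge (AddSubgroup.mem_top a)

section Elements

variable {ι : Type} [Fintype ι] [DecidableEq ι] {F : Type*} [Field F]
variable {σ : F ≃+* F} {f : (ι → F) → (ι → F) → F} (hf : IsSkewForm σ f)
variable (M : Subgroup (GL ι F))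

/-- `M` contains the transvection with the given centre and scalar, if isotropic. -/
def TMem (v : ι → F) : Prop := ∀ (hv : f v v = 0) (c : F), σ c = c → T hf v c hv ∈ M

/-- `M` contains the Eichler element with the given data. -/
def EMem (u v : ι → F) (c : F) : Prop := ∀ (hu : f u u = 0) (hvu : f v u = 0), E hf u v c hu hvu ∈ M

/-- The whole short root group of an orthogonal isotropic pair. -/
def PMem (a b : ι → F) : Prop := ∀ t : F, EMem hf M a (t • b) 0

/-- The root elements along the anisotropic direction. -/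
def DMem (a d : ι → F) : Prop := ∀ t : F, ∃ c, c - σ c = f (t • d) (t • d) ∧ EMem hf M a (t • d) c

variable {M}

theorem E_congr {u u' v v' : ι → F} {c c' : F} {hu hvu hu' hvu'} (e1 : u = u') (e2 : v = v') (e3 : c = c') :
    E hf u v c hu hvu = E hf u' v' c' hu' hvu' := by
  subst e1 e2 e3; rfl

theorem conj_E {g : GL ι F} (hg : g ∈ isom f) {u v : ι → F} (c : F) (hu : f u u = 0) (hvu : f v u = 0) :
    g * E hf u v c hu hvu * g⁻¹ = E hf (ap g u) (ap g v) c (isotropic_ap hf hg hu)
      (by rw [mem_isom_iff.mp hg, hvu]) := by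
  apply gl_ext
  intro x
  have h1 : f (ap g⁻¹ x) u = f x (ap g u) := by rw [← mem_isom_iff.mp hg, ap_ap_inv]
  have h2 : f (ap g⁻¹ x) v = f x (ap g v) := by rw [← mem_isom_iff.mp hg, ap_ap_inv]
  simp only [ap_mul, ap_E hf, ap_add, ap_smul, ap_ap_inv, h1, h2]

theorem E_smul_left {u v : ι → F} (a c : F) (hu : f u u = 0) (hau : f (a • u) (a • u) = 0)
    (hva : f v (a • u) = 0) (hvu : f (σ a • v) u = 0) :
    E hf (a • u) v c hau hva = E hf u (σ a • v) (a * σ a * c) hu hvu := by
  apply gl_ext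
  intro x
  simp only [ap_E hf, Unitary.smul_right hf, hf.involutive]
  module

theorem E_swap {a b : ι → F} (t : F) (ha : f a a = 0) (hb : f b b = 0) (h1 : f (t • b) a = 0)
    (h2 : f (σ t • a) b = 0) : E hf a (t • b) 0 ha h1 = E hf b (σ t • a) 0 hb h2 := by
  apply gl_ext
  intro x
  simp only [ap_E hf, Unitary.smul_right hf, hf.involutive]
  module

theorem E_zero {u : ι → F} (hu : f u u = 0) (h : f 0 u = 0) : E hf u 0 0 hu h = 1 := by
  apply gl_ext
  intro x
  simp [ap_E hf, Unitary.zero_right hf]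

theorem PMem.symm {a b : ι → F} (hP : PMem hf M a b) (ha : f a a = 0) (hba : f b a = 0) :
    PMem hf M b a := fun t hb h1 => by
  have h2 : f (σ t • b) a = 0 := by rw [hf.smul_left, hba, mul_zero]
  have e := E_swap hf (σ t) ha hb h2 (by rwa [hf.involutive])
  rw [E_congr hf (v := t • a) (v' := σ (σ t) • a) (hu' := hb)
    (hvu' := by rwa [hf.involutive]) rfl (by rw [hf.involutive]) rfl, ← e]
  exact hP (σ t) ha h2

theorem PMem.smul_right {a b : ι → F} (hP : PMem hf M a b) (s : F) : PMem hf M a (s • b) := fun t hu h => by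
  rw [E_congr hf (v' := (t * s) • b) (hu' := hu) (hvu' := by rwa [← smul_smul]) rfl (smul_smul t s b) rfl]
  exact hP _ _ _

theorem PMem.conj {g : GL ι F} (hg : g ∈ isom f) (hgM : g ∈ M) {a b : ι → F} (hP : PMem hf M a b)
    (ha : f a a = 0) (hba : f b a = 0) : PMem hf M (ap g a) (ap g b) := fun t hu h => by
  have h1 : f (t • b) a = 0 := by rw [hf.smul_left, hba, mul_zero]
  rw [E_congr hf (v' := ap g (t • b)) (hu' := isotropic_ap hf hg ha)
    (hvu' := by rw [mem_isom_iff.mp hg, h1]) rfl (ap_smul g t b).symm rfl, ← conj_E hf hg 0 ha h1]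
  exact M.mul_mem (M.mul_mem hgM (hP t ha h1)) (M.inv_mem hgM)

theorem DMem.conj {g : GL ι F} (hg : g ∈ isom f) (hgM : g ∈ M) {a d : ι → F} (hP : DMem hf M a d)
    (ha : f a a = 0) (hda : f d a = 0) (hgd : ap g d = d) : DMem hf M (ap g a) d := fun t => by
  obtain ⟨c, hc, hm⟩ := hP t
  refine ⟨c, hc, fun hu h => ?_⟩
  have h1 : f (t • d) a = 0 := by rw [hf.smul_left, hda, mul_zero]
  rw [E_congr hf (v' := ap g (t • d)) (hu' := isotropic_ap hf hg ha)
    (hvu' := by rw [mem_isom_iff.mp hg, h1]) rfl (by rw [ap_smul, hgd]) rfl, ← conj_E hf hg c ha h1]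
  exact M.mul_mem (M.mul_mem hgM (hm ha h1)) (M.inv_mem hgM)

theorem TMem.conj {g : GL ι F} (hg : g ∈ isom f) (hgM : g ∈ M) {v : ι → F} (hP : TMem hf M v)
    (hv : f v v = 0) : TMem hf M (ap g v) := fun hu c hc => by
  rw [show T hf (ap g v) c hu = g * T hf v c hv * g⁻¹ by rw [conj_T hf hg hv]]
  exact M.mul_mem (M.mul_mem hgM (hP hv c hc)) (M.inv_mem hgM)

/-- The commutator of two Eichler elements. -/
theorem comm_mem {a v b v' : ι → F} {c c' : F} (ha : f a a = 0) (hva : f v a = 0) (hb : f b b = 0)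
    (hvb : f v' b = 0) (hc : c - σ c = f v v) (hg : E hf a v c ha hva ∈ M) (hx : E hf b v' c' hb hvb ∈ M)
    (hba : f b a = 0) (hbv : f b v = 0) (hv'a : f v' a = 0) :
    EMem hf M b (f v' v • a) 0 := fun _ h0 => by
  set g := E hf a v c ha hva
  have hgi : g ∈ isom f := (E_mem hf hc).1
  have e := conj_E hf hgi c' hb hvb
  have egb : ap g b = b := by simp [g, ap_E hf, hba, hbv]
  have egv : ap g v' = v' + f v' v • a := by simp [g, ap_E hf, hv'a]
  have h1 : f (v' + f v' v • a) b = 0 := by rw [hf.add_left, hvb, h0, add_zero]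
  rw [E_congr hf (u' := b) (v' := v' + f v' v • a) (c' := c') (hu' := hb) (hvu' := h1) egb egv rfl] at e
  have e2 : E hf b v' c' hb hvb * E hf b (f v' v • a) 0 hb h0 = g * E hf b v' c' hb hvb * g⁻¹ := by
    rw [e, E_mul_E hf h1]
    refine E_congr hf rfl rfl ?_
    rw [hf.smul_left, (eq_zero_comm hf).mp hv'a, mul_zero, add_zero, add_zero]
  have := M.mul_mem (M.mul_mem hg hx) (M.inv_mem hg)
  rw [← e2] at this
  exact (M.mul_mem_cancel_left hx).1 this

variable [Finite F]

/-- Short root groups compose along a non-orthogonal link. -/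
theorem PMem.comp {a b b' d : ι → F} (h1 : PMem hf M a b) (h2 : PMem hf M b' d)
    (ha : f a a = 0) (hb : f b b = 0) (hb' : f b' b' = 0) (hd : f d d = 0) (hlink : f b' b ≠ 0)
    (hba : f b a = 0) (hb'a : f b' a = 0) (hdb : f d b = 0) (hda : f d a = 0) (hdb' : f d b' = 0) :
    PMem hf M a d := by
  have h2' : PMem hf M d b' := h2.symm hf hb' hdb'
  have key : PMem hf M d a := by
    intro t
    have hv : f (b : ι → F) a = 0 := hba
    have hva : f ((1 : F) • b) a = 0 := by rw [one_smul, hv]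
    have hvb : f ((t / f b' b) • b') d = 0 := by
      rw [hf.smul_left, (eq_zero_comm hf).mp hdb', mul_zero]
    have := comm_mem hf (c := 0) ha hva hd hvb (by rw [map_zero, sub_zero, one_smul, hb])
      (h1 1 ha hva) (h2' _ hd hvb) hda (by rw [one_smul, hdb]) (by rw [hf.smul_left, hb'a, mul_zero])
    rwa [one_smul, hf.smul_left, div_mul_cancel₀ _ hlink] at this
  exact key.symm hf hd ((eq_zero_comm hf).mp hda)

/-- A pair of short root groups gives a long one. -/
theorem PMem.long {a b b' : ι → F} (h1 : PMem hf M a b) (h2 : PMem hf M b' a)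
    (ha : f a a = 0) (hb : f b b = 0) (hb' : f b' b' = 0) (hlink : f b' b ≠ 0)
    (hba : f b a = 0) (hb'a : f b' a = 0) : TMem hf M a := by
  intro hv c hc
  obtain ⟨θ, hθ⟩ := exists_trace hf
  have h2' : PMem hf M a b' := h2.symm hf hb' ((eq_zero_comm hf).mp hb'a)
  have hva : f ((1 : F) • b) a = 0 := by rw [one_smul, hba]
  have hvb : f ((c * θ / f b' b) • b') a = 0 := by rw [hf.smul_left, hb'a, mul_zero]
  have := comm_mem hf (c := 0) ha hva ha hvb (by rw [map_zero, sub_zero, one_smul, hb])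
    (h1 1 ha hva) (h2' _ ha hvb) ha (by rw [one_smul, (eq_zero_comm hf).mp hba])
    (by rw [hf.smul_left, hb'a, mul_zero])
  rw [one_smul, hf.smul_left, div_mul_cancel₀ _ hlink] at this
  have h3 : f ((c * θ) • a) a = 0 := by rw [hf.smul_left, ha, mul_zero]
  have e := this ha h3
  rw [E_smul_self hf (c * θ) h3 0 rfl, map_mul, hc, add_zero, ← mul_add, hθ, mul_one] at e
  exact e

/-- Two root groups along the anisotropic direction give a short root group. -/
theorem DMem.pair {a b d : ι → F} (h1 : DMem hf M a d) (h2 : DMem hf M b d) (ha : f a a = 0)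
    (hb : f b b = 0) (hba : f b a = 0) (hda : f d a = 0) (hdb : f d b = 0) (hdd : f d d ≠ 0) :
    PMem hf M b a := by
  intro t
  obtain ⟨c, hc, hg⟩ := h1 1
  obtain ⟨c', -, hx⟩ := h2 (t / f d d)
  have := comm_mem hf ha (show f ((1 : F) • d) a = 0 by rw [one_smul, hda]) hb
    (show f ((t / f d d) • d) b = 0 by rw [hf.smul_left, hdb, mul_zero]) hc (hg _ _) (hx _ _) hba
    (by rw [one_smul, (eq_zero_comm hf).mp hdb]) (by rw [hf.smul_left, hda, mul_zero])
  rwa [one_smul, hf.smul_left, div_mul_cancel₀ _ hdd] at this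

/-- Root groups along the anisotropic direction give the long root group. -/
theorem DMem.long {a d : ι → F} (h1 : DMem hf M a d) (hda : f d a = 0) (hdd : f d d ≠ 0) :
    TMem hf M a := by
  intro ha c hc
  obtain ⟨lam, hlam⟩ := exists_sub_eq hf (s := c / f d d) (by
    rw [map_div₀, hc, skew_self hf]; ring)
  obtain ⟨c1, -, h1a⟩ := h1 lam
  obtain ⟨c2, -, h1b⟩ := h1 1
  have ha1 : f (lam • d) a = 0 := by rw [hf.smul_left, hda, mul_zero]
  have ha2 : f ((1 : F) • d) a = 0 := by rw [one_smul, hda]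
  have hs : f (lam • d + (1 : F) • d) a = 0 := by rw [hf.add_left, ha1, ha2, add_zero]
  have hs' : f ((1 : F) • d + lam • d) a = 0 := by rw [hf.add_left, ha1, ha2, add_zero]
  have e12 := E_mul_E hf (c₁ := c1) (c₂ := c2) (hu := ha) (h₁ := ha1) (h₂ := ha2) hs
  have e21 := E_mul_E hf (c₁ := c2) (c₂ := c1) (hu := ha) (h₁ := ha2) (h₂ := ha1) hs'
  have e : E hf a (lam • d) c1 ha ha1 * E hf a ((1 : F) • d) c2 ha ha2 * T hf a c ha =
      E hf a ((1 : F) • d) c2 ha ha2 * E hf a (lam • d) c1 ha ha1 := by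
    rw [e12, e21, E_mul_T hf]
    refine E_congr hf rfl (add_comm _ _) ?_
    simp only [hf.smul_left, Unitary.smul_right hf, map_one, one_mul]
    field_simp at hlam
    linear_combination -hlam
  have hm : E hf a ((1 : F) • d) c2 ha ha2 * E hf a (lam • d) c1 ha ha1 ∈ M :=
    M.mul_mem (h1b _ _) (h1a _ _)
  rw [← e] at hm
  exact (M.mul_mem_cancel_left (M.mul_mem (h1a _ _) (h1b _ _))).1 hm

/-- The transvection group absorbs the constant of an Eichler element. -/
theorem E_mem_of_DMem {a d : ι → F} (h1 : DMem hf M a d) (hT : TMem hf M a) {t c : F} (ha : f a a = 0)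
    (h : f (t • d) a = 0) (hc : c - σ c = f (t • d) (t • d)) : E hf a (t • d) c ha h ∈ M := by
  obtain ⟨c', hc', hm⟩ := h1 t
  have e := E_mul_T hf (hu := ha) (hvu := h) c' (c - c')
  rw [add_sub_cancel] at e
  rw [← e]
  exact M.mul_mem (hm _ _) (hT _ _ (by rw [map_sub]; linear_combination hc' - hc))

end Elements

end CfsgLib.KnownSimple.TwoGen.Unitary
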