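import Cfsg.Agent.Lib.KnownSimple.TwoGen.UnitaryModel

/-!
From the hyperbolic model to the standard unitary form: two generators of `SU` and of `PSU`.
-/

set_option autoImplicit false
set_option linter.unusedSectionVars false

open Matrix CfsgLib.Geometric CfsgLib.Geometric.Unitary

namespace CfsgLib.KnownSimple.TwoGen.Unitary

variable {F : Type*} [Field F]
variable {ι ι' : Type} [Fintype ι] [DecidableEq ι] [Fintype ι'] [DecidableEq ι']

section bundled

variable {σ : F ≃+* F} {f : (ι → F) → (ι → F) → F}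

/-- A multiple of a skew form, with the arguments exchanged, as a bundled sesquilinear map. -/
def skewBundled (hf : IsSkewForm σ f) (ζ : F) : (ι → F) →ₛₗ[(σ : F →+* F)] (ι → F) →ₗ[F] F :=
  LinearMap.mk₂'ₛₗ (σ : F →+* F) (RingHom.id F) (fun v u => ζ * f u v)
    (fun v v' u => by rw [Unitary.add_right hf]; ring)
    (fun a v u => by
      rw [Unitary.smul_right hf, RingEquiv.coe_toRingHom, smul_eq_mul]; ring)
    (fun v u u' => by rw [hf.add_left]; ring)
    (fun a v u => by rw [hf.smul_left, RingHom.id_apply, smul_eq_mul]; ring)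

theorem skewBundled_apply (hf : IsSkewForm σ f) (ζ : F) (u v : ι → F) :
    skewBundled hf ζ v u = ζ * f u v := rfl

theorem skewBundled_isSymm (hf : IsSkewForm σ f) {ζ : F} (hζ : σ ζ = -ζ) :
    (skewBundled hf ζ).IsSymm :=
  ⟨fun v u => by
    rw [skewBundled_apply, skewBundled_apply, RingEquiv.coe_toRingHom, map_mul, hζ,
      hf.skew v u]
    ring⟩

theorem skewBundled_nondegenerate (hf : IsSkewForm σ f) {ζ : F} (hζ0 : ζ ≠ 0) :
    (skewBundled hf ζ).Nondegenerate := by
  refine ⟨fun v h => ?_, fun u h => ?_⟩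
  · by_contra hv
    obtain ⟨⟨w, hw⟩, -⟩ := hf.nondegenerate v hv
    exact mul_ne_zero hζ0 hw (h w)
  · by_contra hu
    obtain ⟨-, w, hw⟩ := hf.nondegenerate u hu
    exact mul_ne_zero hζ0 hw (h w)

end bundled

/-- Two skew forms of the same dimension over a finite field are isometric. -/
theorem exists_isometry [Finite F] {σ : F ≃+* F} {f : (ι → F) → (ι → F) → F}
    {f' : (ι' → F) → (ι' → F) → F} (hf : IsSkewForm σ f) (hf' : IsSkewForm σ f')
    (hcard : Fintype.card ι = Fintype.card ι') :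
    ∃ e : (ι → F) ≃ₗ[F] (ι' → F), ∀ u v, f' (e u) (e v) = f u v := by
  obtain ⟨ζ, hζ0, hζ⟩ := Unitary.exists_skew hf
  obtain ⟨e, he⟩ := CfsgLib.Forms.hermitian_isometric (σ : F →+* F) (Unitary.hom_ne hf) hf.involutive
    (skewBundled hf ζ) (skewBundled_isSymm hf hζ) (skewBundled_nondegenerate hf hζ0)
    (skewBundled hf' ζ) (skewBundled_isSymm hf' hζ) (skewBundled_nondegenerate hf' hζ0)
    (by rw [Module.finrank_fintype_fun_eq_card, Module.finrank_fintype_fun_eq_card, hcard])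
  exact ⟨e, fun u v => mul_left_cancel₀ hζ0 (he v u)⟩

/-- Conjugation by a linear equivalence between coordinate spaces. -/
def transferHom (e : (ι → F) ≃ₗ[F] (ι' → F)) : GL ι F →* GL ι' F where
  toFun g := ofEquiv ((e.symm.trans (apEquiv g)).trans e)
  map_one' := gl_ext fun x => by simp
  map_mul' g h := gl_ext fun x => by simp [ap_mul]

theorem ap_transferHom (e : (ι → F) ≃ₗ[F] (ι' → F)) (g : GL ι F) (x : ι' → F) :
    ap (transferHom e g) x = e (ap g (e.symm x)) := by
  simp [transferHom]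

theorem det_transferHom (e : (ι → F) ≃ₗ[F] (ι' → F)) (g : GL ι F) :
    ((transferHom e g : GL ι' F) : Matrix ι' ι' F).det = (g : Matrix ι ι F).det := by
  show (LinearMap.toMatrix' (((e.symm.trans (apEquiv g)).trans e) : (ι' → F) →ₗ[F] (ι' → F))).det = _
  rw [LinearMap.det_toMatrix', show (((e.symm.trans (apEquiv g)).trans e) : (ι' → F) →ₗ[F] (ι' → F)) =
      (e : (ι → F) →ₗ[F] (ι' → F)) ∘ₗ (Matrix.toLin' (g : Matrix ι ι F)) ∘ₗ
        (e.symm : (ι' → F) →ₗ[F] (ι → F)) from LinearMap.ext fun x => rfl,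
    LinearMap.det_conj, LinearMap.det_toLin']

variable {σ : F ≃+* F} {f : (ι → F) → (ι → F) → F} {f' : (ι' → F) → (ι' → F) → F}
  {e : (ι → F) ≃ₗ[F] (ι' → F)}

theorem transferHom_mem (he : ∀ u v, f' (e u) (e v) = f u v) {g : GL ι F}
    (hg : g ∈ isom f ⊓ Cfsg.Geo.specialLinear ι F) :
    transferHom e g ∈ isom f' ⊓ Cfsg.Geo.specialLinear ι' F := by
  refine ⟨mem_isom_iff.2 fun u v => ?_, (mem_specialLinear_iff _).2 ?_⟩
  · rw [ap_transferHom, ap_transferHom, he, mem_isom_iff.1 hg.1, ← he, e.apply_symm_apply,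
      e.apply_symm_apply]
  · rw [det_transferHom]
    exact (mem_specialLinear_iff _).1 hg.2

theorem hasT_map (hf : IsSkewForm σ f) (hf' : IsSkewForm σ f') (he : ∀ u v, f' (e u) (e v) = f u v)
    {M : Subgroup (GL ι F)} (hM : HasT hf M) : HasT hf' (M.map (transferHom e)) := by
  intro v hv c hc
  have hv' : f (e.symm v) (e.symm v) = 0 := by rw [← he, e.apply_symm_apply, hv]
  refine ⟨T hf (e.symm v) c hv', hM _ hv' _ hc, gl_ext fun x => ?_⟩
  rw [ap_transferHom, ap_T hf, ap_T hf', map_add, map_smul, e.apply_symm_apply, e.apply_symm_apply,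
    ← he, e.apply_symm_apply, e.apply_symm_apply]

variable [Fintype F]

/-- `PSU` is generated by two of its elements. -/
theorem psu_two_generated {q : ℕ} (hF : Fintype.card F = q ^ 2) (N : ℕ) (hN : 3 ≤ N)
    (h32 : ¬ (N = 3 ∧ q = 2)) :
    ∃ a b : Cfsg.PSU N F q, Subgroup.closure ({a, b} : Set (Cfsg.PSU N F q)) = ⊤ := by
  classical
  obtain ⟨σ, hσq, hh⟩ := isUnitaryForm_hermForm (F := F) N q hF
  obtain ⟨ζ, hζ, hfh⟩ := exists_skewForm_of_unitary hh
  obtain ⟨η, hη, hη'⟩ := Unitary.exists_skew hfh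
  obtain ⟨n, r, hr, rfl⟩ : ∃ n r, r ≤ 1 ∧ N = 2 * (n + 1) + r :=
    ⟨N / 2 - 1, N % 2, by omega, by omega⟩
  have hfm : IsSkewForm σ (mform (n := n) (r := r) σ η) :=
    isSkew_mform hfh.ne_refl hfh.involutive hη hη'
  have hq2 : 2 ≤ q := (Nat.one_lt_pow_iff two_ne_zero).1 (hF ▸ Fintype.one_lt_card)
  obtain ⟨A, B, hA, hB, hT⟩ := exists_pair_model hF hσq hfh.involutive hη hfm hr hN
    (fun hn => by by_contra h; exact h32 ⟨by omega, by omega⟩)
  obtain ⟨e, he⟩ := exists_isometry hfm hfh (by simp [Idx]; omega)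
  have hA' := transferHom_mem (f' := fun u v => ζ * Cfsg.hermForm (2 * (n + 1) + r) F q u v) he hA
  have hB' := transferHom_mem (f' := fun u v => ζ * Cfsg.hermForm (2 * (n + 1) + r) F q u v) he hB
  have hle := CfsgLib.ClassicalForms.su_le_of_hasT hF hN h32 hζ hfh (hasT_map hfm hfh he hT)
  set S := CfsgLib.ClassicalForms.suEquivIsomSL (q := q) (n := 2 * (n + 1) + r) (F := F) hζ
  have hgen : Subgroup.closure ({S.symm ⟨_, hA'⟩, S.symm ⟨_, hB'⟩} :
      Set (Cfsg.SU (2 * (n + 1) + r) F q)) = ⊤ := by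
    refine eq_top_iff.2 fun x _ => ?_
    set K := Subgroup.closure ({S.symm ⟨_, hA'⟩, S.symm ⟨_, hB'⟩} :
      Set (Cfsg.SU (2 * (n + 1) + r) F q))
    let j : Cfsg.SU (2 * (n + 1) + r) F q →* GL (Fin (2 * (n + 1) + r)) F :=
      (Subgroup.subtype _).comp S.toMonoidHom
    have hx : j x ∈ (Subgroup.closure {A, B}).map (transferHom e) := hle (S x).2
    have hsub : (Subgroup.closure {A, B}).map (transferHom e) ≤ K.map j := by
      rw [MonoidHom.map_closure, MonoidHom.map_closure, Set.image_pair, Set.image_pair]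
      exact le_of_eq (by simp [j])
    obtain ⟨y, hy, hyx⟩ := hsub hx
    have hj : Function.Injective j := fun a b h => S.injective (Subtype.ext h)
    rwa [hj hyx] at hy
  refine ⟨QuotientGroup.mk' _ (S.symm ⟨_, hA'⟩), QuotientGroup.mk' _ (S.symm ⟨_, hB'⟩), ?_⟩
  rw [← Set.image_pair, ← MonoidHom.map_closure, hgen,
    Subgroup.map_top_of_surjective _ (QuotientGroup.mk'_surjective _)]

end CfsgLib.KnownSimple.TwoGen.Unitary
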